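import Mathlib
import Cfsg.Agent.Lib.Helper6.M24Nrm

set_option autoImplicit false

/-! # The centraliser in `M24` of an involution with eight fixed points: lower bound `21504`
(generated by `tools/gen_cenA.py`) -/

namespace Cfsg.Agent.Lib.Helper6.Cls

open Cfsg Cfsg.Agent.Lib.Helper6.Golay Cfsg.Agent.Lib.Helper6.M24 Cfsg.Agent.Lib.Helper6.M12
open scoped Pointwise

/-- orbit–stabiliser inequality, lower bound -/
theorem card_ge_card_mul (H : Subgroup (Equiv.Perm GolayPt)) (x : GolayPt) (T : Finset GolayPt)
    (hsup : ∀ q ∈ T, ∃ h ∈ H, h x = q) :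
    T.card * Nat.card (H ⊓ MulAction.stabilizer (Equiv.Perm GolayPt) x :
      Subgroup (Equiv.Perm GolayPt)) ≤ Nat.card H := by
  have h1 := Subgroup.card_mul_index (MulAction.stabilizer H x)
  rw [MulAction.index_stabilizer] at h1
  have horb : (T : Set GolayPt) ⊆ MulAction.orbit H x := by
    intro q hq
    rw [MulAction.mem_orbit_iff]
    obtain ⟨h, hh, e⟩ := hsup q hq
    exact ⟨⟨h, hh⟩, e⟩
  have h2 : T.card ≤ (MulAction.orbit H x).ncard := by
    rw [← Set.ncard_coe_finset]
    exact Set.ncard_le_ncard horb (Set.toFinite _)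
  have h3 : Nat.card (MulAction.stabilizer H x) =
      Nat.card (H ⊓ MulAction.stabilizer (Equiv.Perm GolayPt) x : Subgroup (Equiv.Perm GolayPt)) := by
    apply Nat.card_congr
    exact
      { toFun := fun g => ⟨g.1.1, ⟨g.1.2, g.2⟩⟩
        invFun := fun g => ⟨⟨g.1, g.2.1⟩, g.2.2⟩
        left_inv := fun _ => rfl
        right_inv := fun _ => rfl }
  rw [← h1, h3, Nat.mul_comm]
  exact Nat.mul_le_mul_left _ h2

/-- the sixteen points moved by `UA` -/
def offA : ℕ := 15526270

/-- the points moved by `UA` other than `1` and `2` -/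
def orb3A : ℕ := 15526264

/-- elements of the centraliser of `UA` moving the point `0` to each fixed point of `UA` -/
def A0 : List ℕ := [1383171691763700179920714943059671, 0, 0, 0, 0, 0, 0, 292151799474966687861014228129861079, 0, 375228561809192278226922924657596104, 416766936962800635437434893269251246, 0, 499843671968289567185862891714950325, 0, 0, 0, 665997190980007108212822440097950994, 707535552192221986323638873654434547, 0, 0, 832150690114633873458004575380321463, 0, 0, 0]

/-- elements of the centraliser of `UA` fixing `0` and moving the point `1` -/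
def A1 : List ℕ := [0, 1383171691763700179920714943059671, 2640701558469360345099010160730290, 4057856474775736619620784089340648, 5315367182780357781681756597443019, 6937947297180148620948946270109301, 8519973400881069065155863121366765, 0, 10913290294911384183426018178389490, 0, 0, 14483006742176333750536670087090610, 0, 17200859557797533599811489938936166, 19026271125440550339398602584206543, 20405467238367666345356544548804755, 0, 0, 23610091089862293199714202246592680, 25557201882554810441962653547204038, 0, 27828823621346701777646088215991491, 29329729207784868243566396460842344, 30465534278375888440119607089845675]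

/-- elements of the centraliser of `UA` fixing `0`, `1` and moving the point `3` -/
def A3 : List ℕ := [0, 0, 0, 1383171691763700179920714943059671, 1384415902778534498504318119336389, 1385982279880606304194117320982126, 1387528200383750327984814816638670, 0, 1389879046972649857768700426672707, 0, 0, 1393356727230478201018374507764183, 0, 1396026966728526826171181951357298, 1397805314603563790077002396523798, 1399134274475258946385760794958184, 0, 0, 1402266347960284202684029447952644, 1404189530733165686411137368012902, 0, 1406407751357209227042807495674227, 1407850032982858768702444617842029, 1408961893509844038023159781832979]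

/-- level `0` -/
def levA0 (j w : ℕ) : Bool :=
  or (Nat.beq (Nat.land (Nat.shiftRight fixA j) 1) 0)
    (and (inM24c w) (and (commOK w uA) (Nat.beq (evC w 0) j)))

/-- level `1` -/
def levA1 (j w : ℕ) : Bool :=
  or (Nat.beq (Nat.land (Nat.shiftRight offA j) 1) 0)
    (and (inM24c w) (and (commOK w uA) (and (Nat.beq (evC w 0) 0) (Nat.beq (evC w 1) j))))

/-- level `3` -/
def levA3 (j w : ℕ) : Bool :=
  or (Nat.beq (Nat.land (Nat.shiftRight orb3A j) 1) 0)
    (and (inM24c w) (and (commOK w uA) (and (Nat.beq (evC w 0) 0)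
      (and (Nat.beq (evC w 1) 1) (Nat.beq (evC w 3) j)))))

theorem levA0_check : chkL levA0 A0 0 = true := by decide +kernel

theorem levA1_check : chkL levA1 A1 0 = true := by decide +kernel

theorem levA3_check : chkL levA3 A3 0 = true := by decide +kernel

theorem A0_length : A0.length = 24 := by decide

theorem A1_length : A1.length = 24 := by decide

theorem A3_length : A3.length = 24 := by decide

theorem not_bit_zero {n : ℕ} {q : GolayPt} (hq : q ∈ suppMask n)
    (h : Nat.beq (Nat.land (Nat.shiftRight n (0 + idx q)) 1) 0 = true) : False := by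
  rw [mem_suppMask] at hq
  rcases bit_cases n (0 + idx q) with ⟨h1, _⟩ | ⟨_, h2⟩
  · rw [Nat.zero_add, hq] at h1
    exact absurd h1 (by decide)
  · rw [h2] at h
    exact absurd h (by decide)

theorem levA0_spec {q : GolayPt} (hq : q ∈ suppMask fixA) : ∃ c ∈ cen UA, c (pt 0) = q := by
  have hi : idx q < A0.length := by rw [A0_length]; exact idx_lt q
  have h := chkL_spec levA0 A0 0 levA0_check (idx q) hi
  unfold levA0 at h
  rw [Bool.or_eq_true] at h
  rcases h with h | h
  · exact (not_bit_zero hq h).elim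
  · rw [Bool.and_eq_true, Bool.and_eq_true] at h
    obtain ⟨hM, hc, he⟩ := h
    obtain ⟨hv, hmem⟩ := inM24c_spec hM
    refine ⟨tabPerm (decodeTab A0[idx q]) hv, ⟨hmem, ?_⟩, ?_⟩
    · exact (comm_iff_of_acts (acts_code _ hv) UA_acts).2 hc
    · rw [tabPerm_decode_pt _ hv (by norm_num), Nat.eq_of_beq_eq_true he, Nat.zero_add, pt_idx]

theorem levA1_spec {q : GolayPt} (hq : q ∈ suppMask offA) :
    ∃ c ∈ cen UA, c (pt 0) = pt 0 ∧ c (pt 1) = q := by
  have hi : idx q < A1.length := by rw [A1_length]; exact idx_lt q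
  have h := chkL_spec levA1 A1 0 levA1_check (idx q) hi
  unfold levA1 at h
  rw [Bool.or_eq_true] at h
  rcases h with h | h
  · exact (not_bit_zero hq h).elim
  · rw [Bool.and_eq_true, Bool.and_eq_true, Bool.and_eq_true] at h
    obtain ⟨hM, hc, he0, he1⟩ := h
    obtain ⟨hv, hmem⟩ := inM24c_spec hM
    refine ⟨tabPerm (decodeTab A1[idx q]) hv, ⟨hmem, ?_⟩, ?_, ?_⟩
    · exact (comm_iff_of_acts (acts_code _ hv) UA_acts).2 hc
    · rw [tabPerm_decode_pt _ hv (by norm_num), Nat.eq_of_beq_eq_true he0]
    · rw [tabPerm_decode_pt _ hv (by norm_num), Nat.eq_of_beq_eq_true he1, Nat.zero_add, pt_idx]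

theorem levA3_spec {q : GolayPt} (hq : q ∈ suppMask orb3A) :
    ∃ c ∈ cen UA, c (pt 0) = pt 0 ∧ c (pt 1) = pt 1 ∧ c (pt 3) = q := by
  have hi : idx q < A3.length := by rw [A3_length]; exact idx_lt q
  have h := chkL_spec levA3 A3 0 levA3_check (idx q) hi
  unfold levA3 at h
  rw [Bool.or_eq_true] at h
  rcases h with h | h
  · exact (not_bit_zero hq h).elim
  · rw [Bool.and_eq_true, Bool.and_eq_true, Bool.and_eq_true, Bool.and_eq_true] at h
    obtain ⟨hM, hc, he0, he1, he3⟩ := h
    obtain ⟨hv, hmem⟩ := inM24c_spec hM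
    refine ⟨tabPerm (decodeTab A3[idx q]) hv, ⟨hmem, ?_⟩, ?_, ?_, ?_⟩
    · exact (comm_iff_of_acts (acts_code _ hv) UA_acts).2 hc
    · rw [tabPerm_decode_pt _ hv (by norm_num), Nat.eq_of_beq_eq_true he0]
    · rw [tabPerm_decode_pt _ hv (by norm_num), Nat.eq_of_beq_eq_true he1]
    · rw [tabPerm_decode_pt _ hv (by norm_num), Nat.eq_of_beq_eq_true he3, Nat.zero_add, pt_idx]

/-- the codes of the elements of the centraliser of `UA` fixing `0,..,4` -/
def C12 : List ℕ := L48c.filter (fun m => commOK m uA)

theorem C12_length : C12.length = 12 := by decide +kernel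

theorem card_HA_ge : 12 ≤ Nat.card (cen UA ⊓ MulAction.stabilizer (Equiv.Perm GolayPt) (pt 0) ⊓
    MulAction.stabilizer (Equiv.Perm GolayPt) (pt 1) ⊓
    MulAction.stabilizer (Equiv.Perm GolayPt) (pt 3) : Subgroup (Equiv.Perm GolayPt)) := by
  have hsub : (fun m => tabPermD (decodeTab m)) '' ((C12.toFinset : Finset ℕ) : Set ℕ) ⊆
      ((cen UA ⊓ MulAction.stabilizer (Equiv.Perm GolayPt) (pt 0) ⊓
      MulAction.stabilizer (Equiv.Perm GolayPt) (pt 1) ⊓
      MulAction.stabilizer (Equiv.Perm GolayPt) (pt 3) : Subgroup (Equiv.Perm GolayPt)) :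
        Set (Equiv.Perm GolayPt)) := by
    rintro c ⟨m, hm, rfl⟩
    have hm' : m ∈ C12 := by simpa using hm
    unfold C12 at hm'
    rw [List.mem_filter] at hm'
    obtain ⟨hv, hfix⟩ := L48c_valid hm'.1
    show tabPermD (decodeTab m) ∈ _
    rw [tabPermD_eq hv]
    refine ⟨⟨⟨⟨hfix.1, (comm_iff_of_acts (acts_code m hv) UA_acts).2 hm'.2⟩, ?_⟩, ?_⟩, ?_⟩
    · exact hfix.2 (pt 0) (by rw [idx_pt (by norm_num)]; decide)
    · exact hfix.2 (pt 1) (by rw [idx_pt (by norm_num)]; decide)
    · exact hfix.2 (pt 3) (by rw [idx_pt (by norm_num)]; decide)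
  have hinj : Set.InjOn (fun m => tabPermD (decodeTab m)) ((C12.toFinset : Finset ℕ) : Set ℕ) := by
    intro a ha b hb e
    have ha' : a ∈ L48c := (List.mem_filter.1 (by simpa using ha : a ∈ C12)).1
    have hb' : b ∈ L48c := (List.mem_filter.1 (by simpa using hb : b ∈ C12)).1
    obtain ⟨hva, -⟩ := L48c_valid ha'
    obtain ⟨hvb, -⟩ := L48c_valid hb'
    have e' : tabPerm (decodeTab a) hva = tabPerm (decodeTab b) hvb := by
      rw [← tabPermD_eq hva, ← tabPermD_eq hvb]; exact e
    exact List.inj_on_of_nodup_map L48c_map_nodup ha' hb' (tabPerm_inj hva hvb e')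
  have hnd : C12.Nodup := L48c_nodup.filter _
  have h1 := Set.ncard_le_ncard hsub (Set.toFinite _)
  rw [Set.InjOn.ncard_image hinj, Set.ncard_coe_finset, List.toFinset_card_of_nodup hnd,
    C12_length] at h1
  have h2 : Nat.card (cen UA ⊓ MulAction.stabilizer (Equiv.Perm GolayPt) (pt 0) ⊓
      MulAction.stabilizer (Equiv.Perm GolayPt) (pt 1) ⊓
      MulAction.stabilizer (Equiv.Perm GolayPt) (pt 3) : Subgroup (Equiv.Perm GolayPt)) =
      ((cen UA ⊓ MulAction.stabilizer (Equiv.Perm GolayPt) (pt 0) ⊓
      MulAction.stabilizer (Equiv.Perm GolayPt) (pt 1) ⊓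
      MulAction.stabilizer (Equiv.Perm GolayPt) (pt 3) : Subgroup (Equiv.Perm GolayPt)) :
        Set (Equiv.Perm GolayPt)).ncard := (Nat.card_coe_set_eq _)
  rw [h2]
  exact h1

/-- the centraliser in `M24` of the standard involution with eight fixed points has order at
least `21504` -/
theorem card_cen_UA_ge : 21504 ≤ Nat.card (cen UA) := by
  have h1 := card_ge_card_mul (cen UA) (pt 0) (suppMask fixA) (fun q hq => levA0_spec hq)
  have h2 := card_ge_card_mul (cen UA ⊓ MulAction.stabilizer (Equiv.Perm GolayPt) (pt 0)) (pt 1)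
    (suppMask offA) (fun q hq => by
      obtain ⟨c, hc, e0, e1⟩ := levA1_spec hq
      exact ⟨c, ⟨hc, e0⟩, e1⟩)
  have h3 := card_ge_card_mul (cen UA ⊓ MulAction.stabilizer (Equiv.Perm GolayPt) (pt 0) ⊓
    MulAction.stabilizer (Equiv.Perm GolayPt) (pt 1)) (pt 3)
    (suppMask orb3A) (fun q hq => by
      obtain ⟨c, hc, e0, e1, e3⟩ := levA3_spec hq
      exact ⟨c, ⟨⟨hc, e0⟩, e1⟩, e3⟩)
  have h4 := card_HA_ge
  have c1 : pcI 24 fixA = 8 := by rw [← pc24_eq]; decide +kernel
  have c2 : pcI 24 offA = 16 := by rw [← pc24_eq]; decide +kernel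
  have c3 : pcI 24 orb3A = 14 := by rw [← pc24_eq]; decide +kernel
  rw [card_suppMask, c1] at h1
  rw [card_suppMask, c2] at h2
  rw [card_suppMask, c3] at h3
  nlinarith [h1, h2, h3, h4]

end Cfsg.Agent.Lib.Helper6.Cls
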