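import Mathlib
import Cfsg.Agent.Lib.Helper6.CenA

set_option autoImplicit false

/-! # The centraliser of `UA` in `M24` acts linearly on five coordinates -/

namespace Cfsg.Agent.Lib.Helper6.Cls

open Cfsg Cfsg.Agent.Lib.Helper6.Golay Cfsg.Agent.Lib.Helper6.M24 Cfsg.Agent.Lib.Helper6.M12
open scoped Pointwise
open Matrix

/-- five code words spanning the words of the code vanishing on the fixed points of `UA` -/
def hm : Fin 5 → ℕ := ![843820, 15526270, 15515712, 13148440, 10537016]

/-- the coordinates of a point -/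
def vec (p : GolayPt) : Fin 5 → ZMod 2 := fun i => ofMask (hm i) p

theorem vec_pt {j : ℕ} (hj : j < 24) (i : Fin 5) :
    vec (pt j) i = if (hm i).testBit j then 1 else 0 := by
  unfold vec ofMask
  rw [idx_pt hj]

/-- the combination of the five words selected by the bits of `m` -/
def comb (m : ℕ) : ℕ :=
  Nat.xor (Nat.mul (Nat.land (Nat.shiftRight m 0) 1) 843820)
    (Nat.xor (Nat.mul (Nat.land (Nat.shiftRight m 1) 1) 15526270)
      (Nat.xor (Nat.mul (Nat.land (Nat.shiftRight m 2) 1) 15515712)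
        (Nat.xor (Nat.mul (Nat.land (Nat.shiftRight m 3) 1) 13148440)
          (Nat.mul (Nat.land (Nat.shiftRight m 4) 1) 10537016))))

/-- the code word `enc k` meets the fixed points of `UA` or is a combination -/
def spanOK (k : ℕ) : Bool :=
  or (not (Nat.beq (Nat.land (enc k) fixA) 0))
    ((List.range 32).any (fun m => Nat.beq (comb m) (enc k)))

theorem span_check : chk spanOK 4096 = true := by decide +kernel

theorem ofMask_bit_mul (m l h : ℕ) :
    ofMask (Nat.mul (Nat.land (Nat.shiftRight m l) 1) h) =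
      (if m.testBit l then (1 : ZMod 2) else 0) • ofMask h := by
  rw [land_shiftRight_one]
  cases m.testBit l
  · show ofMask (0 * h) = _
    rw [Nat.zero_mul, ofMask_zero]
    simp
  · show ofMask (1 * h) = _
    rw [Nat.one_mul]
    simp

theorem ofMask_comb (m : ℕ) (p : GolayPt) :
    ofMask (comb m) p = ∑ l : Fin 5, (if m.testBit l then (1 : ZMod 2) else 0) * ofMask (hm l) p := by
  have h : ofMask (comb m) =
      (if m.testBit 0 then (1 : ZMod 2) else 0) • ofMask 843820 +
      ((if m.testBit 1 then (1 : ZMod 2) else 0) • ofMask 15526270 +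
      ((if m.testBit 2 then (1 : ZMod 2) else 0) • ofMask 15515712 +
      ((if m.testBit 3 then (1 : ZMod 2) else 0) • ofMask 13148440 +
      (if m.testBit 4 then (1 : ZMod 2) else 0) • ofMask 10537016))) := by
    unfold comb
    show ofMask (_ ^^^ (_ ^^^ (_ ^^^ (_ ^^^ _)))) = _
    rw [ofMask_xor, ofMask_xor, ofMask_xor, ofMask_xor, ofMask_bit_mul, ofMask_bit_mul,
      ofMask_bit_mul, ofMask_bit_mul, ofMask_bit_mul]
  rw [h, Fin.sum_univ_five]
  simp only [Pi.add_apply, Pi.smul_apply, smul_eq_mul]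
  show _ = (if m.testBit 0 then (1 : ZMod 2) else 0) * ofMask 843820 p +
      (if m.testBit 1 then (1 : ZMod 2) else 0) * ofMask 15526270 p +
      (if m.testBit 2 then (1 : ZMod 2) else 0) * ofMask 15515712 p +
      (if m.testBit 3 then (1 : ZMod 2) else 0) * ofMask 13148440 p +
      (if m.testBit 4 then (1 : ZMod 2) else 0) * ofMask 10537016 p
  ring

theorem hm_and : ∀ i : Fin 5, hm i &&& fixA = 0 := by decide +kernel

theorem hm_mem (i : Fin 5) : ofMask (hm i) ∈ golayCode := by
  have h : ∀ i : Fin 5, hm i < 2 ^ 24 ∧ isCode (hm i) = true := by decide +kernel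
  exact (mem_golayCode_iff_isCode (h i).1).2 (h i).2

theorem hm_vanish (i : Fin 5) {q : GolayPt} (hq : q ∈ suppMask fixA) : ofMask (hm i) q = 0 := by
  have h : (hm i &&& fixA).testBit (idx q) = false := by
    rw [hm_and i]; exact Nat.zero_testBit _
  rw [Nat.testBit_and, mem_suppMask.1 hq, Bool.and_true] at h
  unfold ofMask
  rw [h]
  rfl

/-- a code word vanishing on the fixed points of `UA` is a combination of the five words -/
theorem span_of_vanish {w : GolayPt → ZMod 2} (hw : w ∈ golayCode)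
    (h0 : ∀ p ∈ suppMask fixA, w p = 0) :
    ∃ a : Fin 5 → ZMod 2, ∀ p, w p = ∑ l : Fin 5, a l * ofMask (hm l) p := by
  obtain ⟨k, hk, rfl⟩ := mem_golayCode_iff.1 hw
  have h := chk_spec span_check k hk
  unfold spanOK at h
  rw [Bool.or_eq_true] at h
  rcases h with h | h
  · exfalso
    have hne : enc k &&& fixA ≠ 0 := by
      intro e
      have h1 : Nat.beq (Nat.land (enc k) fixA) 0 = true := by
        show Nat.beq (enc k &&& fixA) 0 = true
        rw [e]; rfl
      rw [h1] at h
      exact absurd h (by decide)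
    have hlt : enc k &&& fixA < 2 ^ 24 := lt_of_le_of_lt Nat.and_le_left (enc_lt k)
    have hpc : pcI 24 (enc k &&& fixA) ≠ 0 := fun e => hne (eq_zero_of_pcI_eq_zero hlt e)
    rw [← card_suppMask, suppMask_and] at hpc
    obtain ⟨p, hp⟩ := Finset.card_ne_zero.1 hpc
    rw [Finset.mem_inter] at hp
    have h1 := h0 p hp.2
    have h2 : ofMask (enc k) p = 1 := ofMask_apply_eq_one.2 (mem_suppMask.1 hp.1)
    rw [h2] at h1
    exact absurd h1 (by decide)
  · obtain ⟨m, -, hm'⟩ := List.any_eq_true.1 h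
    have e := Nat.eq_of_beq_eq_true hm'
    refine ⟨fun l => if m.testBit l then 1 else 0, fun p => ?_⟩
    rw [← e, ofMask_comb]

/-- an element of `M24` preserving the fixed points of `UA` acts linearly on the coordinates -/
theorem exists_matrix {σ : Equiv.Perm GolayPt} (hσ : σ ∈ M24)
    (hO : ∀ p ∈ suppMask fixA, σ p ∈ suppMask fixA) :
    ∃ A : Matrix (Fin 5) (Fin 5) (ZMod 2), ∀ p, A *ᵥ vec p = vec (σ p) := by
  have hσi : σ⁻¹ ∈ M24 := Subgroup.inv_mem _ hσ
  have key : ∀ i : Fin 5, ∃ a : Fin 5 → ZMod 2,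
      ∀ p, ofMask (hm i) (σ p) = ∑ l : Fin 5, a l * ofMask (hm l) p := by
    intro i
    have hw : permWord σ⁻¹ (ofMask (hm i)) ∈ golayCode := mem_M24_iff.1 hσi _ (hm_mem i)
    have h0 : ∀ p ∈ suppMask fixA, permWord σ⁻¹ (ofMask (hm i)) p = 0 := by
      intro p hp
      exact hm_vanish i (hO p hp)
    obtain ⟨a, ha⟩ := span_of_vanish hw h0
    exact ⟨a, fun p => ha p⟩
  choose a ha using key
  refine ⟨Matrix.of a, fun p => ?_⟩
  funext i
  simp only [Matrix.mulVec, dotProduct, Matrix.of_apply, vec]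
  exact (ha i p).symm

theorem vec_basis : vec (pt 1) = Pi.single 1 1 ∧ vec (pt 2) = Pi.single 1 1 + Pi.single 0 1 ∧
    vec (pt 6) = Pi.single 1 1 + Pi.single 2 1 ∧ vec (pt 8) = Pi.single 1 1 + Pi.single 3 1 ∧
    vec (pt 11) = Pi.single 1 1 + Pi.single 4 1 := by
  refine ⟨?_, ?_, ?_, ?_, ?_⟩ <;>
  · funext i
    rw [vec_pt (by norm_num)]
    revert i
    decide +kernel

/-- the matrix of an element is determined by its action on the coordinates -/
theorem matrix_unique {A B : Matrix (Fin 5) (Fin 5) (ZMod 2)}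
    (h : ∀ p, A *ᵥ vec p = B *ᵥ vec p) : A = B := by
  obtain ⟨e1, e0, e2, e3, e4⟩ := vec_basis
  have h1 := h (pt 1)
  rw [e1] at h1
  have step : ∀ (j : Fin 5) (q : GolayPt), vec q = Pi.single 1 1 + Pi.single j 1 →
      A *ᵥ Pi.single j 1 = B *ᵥ Pi.single j 1 := by
    intro j q e
    have h2 := h q
    rw [e, Matrix.mulVec_add, Matrix.mulVec_add, h1] at h2
    exact add_left_cancel h2
  have key : ∀ j : Fin 5, A *ᵥ Pi.single j 1 = B *ᵥ Pi.single j 1 := by
    intro j
    fin_cases j
    · exact step 0 _ e0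
    · exact h1
    · exact step 2 _ e2
    · exact step 3 _ e3
    · exact step 4 _ e4
  ext i j
  have h3 := congrFun (key j) i
  rwa [Matrix.mulVec_single_one, Matrix.mulVec_single_one] at h3

/-- the centraliser of `UA` preserves the fixed points of `UA` -/
theorem cen_UA_fix {c : Equiv.Perm GolayPt} (hc : c ∈ cen UA) {p : GolayPt}
    (hp : p ∈ suppMask fixA) : c p ∈ suppMask fixA := by
  rw [← UA_fixed, Finset.mem_filter] at hp ⊢
  refine ⟨Finset.mem_univ _, ?_⟩
  have h := Equiv.Perm.congr_fun hc.2 p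
  rw [Equiv.Perm.mul_apply, Equiv.Perm.mul_apply, hp.2] at h
  exact h.symm

open Classical in
/-- the matrix of an element of the centraliser of `UA` -/
noncomputable def matOf (σ : Equiv.Perm GolayPt) : Matrix (Fin 5) (Fin 5) (ZMod 2) :=
  if h : σ ∈ cen UA then Classical.choose (exists_matrix h.1 (fun _ hp => cen_UA_fix h hp)) else 1

theorem matOf_spec {σ : Equiv.Perm GolayPt} (h : σ ∈ cen UA) (p : GolayPt) :
    matOf σ *ᵥ vec p = vec (σ p) := by
  unfold matOf
  rw [dif_pos h]
  exact Classical.choose_spec (exists_matrix h.1 (fun _ hp => cen_UA_fix h hp)) p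

theorem matOf_eq {σ : Equiv.Perm GolayPt} (h : σ ∈ cen UA) {A : Matrix (Fin 5) (Fin 5) (ZMod 2)}
    (hA : ∀ p, A *ᵥ vec p = vec (σ p)) : matOf σ = A :=
  matrix_unique (fun p => by rw [matOf_spec h, hA])

theorem matOf_one : matOf 1 = 1 :=
  matOf_eq (Subgroup.one_mem _) (fun p => by rw [Matrix.one_mulVec]; rfl)

theorem matOf_mul {σ τ : Equiv.Perm GolayPt} (hσ : σ ∈ cen UA) (hτ : τ ∈ cen UA) :
    matOf (σ * τ) = matOf σ * matOf τ :=
  matOf_eq (Subgroup.mul_mem _ hσ hτ) (fun p => by
    rw [← Matrix.mulVec_mulVec, matOf_spec hτ, matOf_spec hσ]; rfl)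

theorem UA_mem_cen : UA ∈ cen UA := ⟨UA_mem, rfl⟩

theorem transv_mulVec (v : Fin 5 → ZMod 2) :
    (Matrix.transvection 0 1 1 : Matrix (Fin 5) (Fin 5) (ZMod 2)) *ᵥ v =
      fun i => if i = 0 then v 0 + v 1 else v i := by
  unfold Matrix.transvection
  rw [Matrix.add_mulVec, Matrix.one_mulVec]
  funext i
  by_cases hi : i = 0
  · subst hi
    simp [Matrix.mulVec, dotProduct, Matrix.single_apply]
  · simp [Matrix.mulVec, dotProduct, hi, Ne.symm hi]

theorem UA_vec_check : ∀ j : Fin 24, ∀ i : Fin 5,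
    (if (hm i).testBit (evC uA j.val) then (1 : ZMod 2) else 0) =
      if i = 0 then (if (hm 0).testBit j.val then (1 : ZMod 2) else 0) +
        (if (hm 1).testBit j.val then (1 : ZMod 2) else 0)
      else (if (hm i).testBit j.val then (1 : ZMod 2) else 0) := by
  decide +kernel

theorem matOf_UA : matOf UA = Matrix.transvection 0 1 1 :=
  matOf_eq UA_mem_cen (fun p => by
    rw [transv_mulVec]
    funext i
    have hj := idx_lt p
    have h1 := UA_vec_check ⟨idx p, hj⟩ i
    have h2 : UA p = pt (evC uA (idx p)) := by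
      have := (UA_acts (idx p) hj).2
      rwa [pt_idx] at this
    have hlt : evC uA (idx p) < 24 := (UA_acts (idx p) hj).1
    rw [h2, vec_pt hlt]
    have e0 : vec p 0 = if (hm 0).testBit (idx p) then 1 else 0 := rfl
    have e1 : vec p 1 = if (hm 1).testBit (idx p) then 1 else 0 := rfl
    have ei : vec p i = if (hm i).testBit (idx p) then 1 else 0 := rfl
    rw [e0, e1, ei]
    exact h1.symm)

theorem vec_inj_check : ∀ j j' : Fin 24, fixA.testBit j.val = false → fixA.testBit j'.val = false →
    (∀ i : Fin 5, (hm i).testBit j.val = (hm i).testBit j'.val) → j = j' := by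
  decide +kernel

theorem vec_one_iff (p : GolayPt) : vec p 1 = 1 ↔ p ∉ suppMask fixA := by
  have h : ∀ j : Fin 24, (hm 1).testBit j.val = !fixA.testBit j.val := by decide +kernel
  have h1 := h ⟨idx p, idx_lt p⟩
  show ofMask (hm 1) p = 1 ↔ _
  rw [ofMask_apply_eq_one, mem_suppMask, h1]
  cases fixA.testBit (idx p) <;> simp

/-- the matrix determines the element -/
theorem eq_one_of_matOf {σ : Equiv.Perm GolayPt} (h : σ ∈ cen UA) (h1 : matOf σ = 1) : σ = 1 := by
  by_contra hne
  have hle := card_fixed_le_eight h.1 hne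
  have hfix : ∀ p, p ∉ suppMask fixA → σ p = p := by
    intro p hp
    have hv : vec (σ p) = vec p := by
      rw [← matOf_spec h, h1, Matrix.one_mulVec]
    have hp1 : σ p ∉ suppMask fixA := by
      rw [← vec_one_iff, hv, vec_one_iff]; exact hp
    have hb : ∀ i : Fin 5, (hm i).testBit (idx (σ p)) = (hm i).testBit (idx p) := by
      intro i
      have := congrFun hv i
      unfold vec ofMask at this
      by_cases ha : (hm i).testBit (idx (σ p)) = true <;>
        by_cases hb : (hm i).testBit (idx p) = true <;> simp_all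
    have hn1 : fixA.testBit (idx (σ p)) = false := by
      rw [mem_suppMask] at hp1; simpa using hp1
    have hn2 : fixA.testBit (idx p) = false := by
      rw [mem_suppMask] at hp; simpa using hp
    have := vec_inj_check ⟨idx (σ p), idx_lt _⟩ ⟨idx p, idx_lt _⟩ hn1 hn2 hb
    exact idx_injective (Fin.mk.inj this)
  have hsub : (suppMask fixA)ᶜ ⊆ Finset.univ.filter fun p => σ p = p := by
    intro p hp
    rw [Finset.mem_compl] at hp
    exact Finset.mem_filter.2 ⟨Finset.mem_univ _, hfix p hp⟩
  have hc := Finset.card_le_card hsub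
  have c1 : pcI 24 fixA = 8 := by rw [← pc24_eq]; decide +kernel
  rw [Finset.card_compl, card_suppMask, c1, card_golayPt] at hc
  omega

theorem matOf_det {σ : Equiv.Perm GolayPt} (h : σ ∈ cen UA) : (matOf σ).det = 1 := by
  have h1 : matOf σ * matOf σ⁻¹ = 1 := by
    rw [← matOf_mul h (Subgroup.inv_mem _ h), mul_inv_cancel, matOf_one]
  have h2 := congrArg Matrix.det h1
  rw [Matrix.det_mul, Matrix.det_one] at h2
  have h3 : (matOf σ).det ≠ 0 := by
    intro e
    rw [e, zero_mul] at h2
    exact absurd h2 (by decide)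
  exact (by decide : ∀ x : ZMod 2, x ≠ 0 → x = 1) _ h3

end Cfsg.Agent.Lib.Helper6.Cls
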