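import Mathlib

set_option autoImplicit false

/-! # The centraliser of a transvection in `SL(5, 2)` has at most `21504` elements -/

namespace Cfsg.Agent.Lib.Helper6.TC

open Matrix

/-- the transvection `1 + E₀₁` -/
abbrev T5 : Matrix (Fin 5) (Fin 5) (ZMod 2) := Matrix.transvection 0 1 1

/-- the embedding of the last three coordinates -/
def e3 (i : Fin 3) : Fin 5 := ⟨i.val + 2, by omega⟩

theorem e3_injective : Function.Injective e3 := by
  intro a b h
  have := congrArg Fin.val h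
  simp only [e3] at this
  exact Fin.ext (by omega)

theorem e3_ne_zero (i : Fin 3) : e3 i ≠ 0 := by
  intro h
  have := congrArg Fin.val h
  simp [e3] at this

theorem e3_ne_one (i : Fin 3) : e3 i ≠ 1 := by
  intro h
  have := congrArg Fin.val h
  simp [e3] at this

theorem exists_e3 {i : Fin 5} (h0 : i ≠ 0) (h1 : i ≠ 1) : ∃ i' : Fin 3, e3 i' = i := by
  have h0' : i.val ≠ 0 := fun h => h0 (Fin.ext h)
  have h1' : i.val ≠ 1 := fun h => h1 (Fin.ext h)
  exact ⟨⟨i.val - 2, by omega⟩, Fin.ext (by simp only [e3]; omega)⟩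

/-- the shape of a matrix commuting with the transvection -/
structure Shape (g : Matrix (Fin 5) (Fin 5) (ZMod 2)) : Prop where
  col0 : ∀ i, i ≠ 0 → g i 0 = 0
  row1 : ∀ j, j ≠ 1 → g 1 j = 0
  g00 : g 0 0 = 1
  g11 : g 1 1 = 1

theorem T5_mul_apply (g : Matrix (Fin 5) (Fin 5) (ZMod 2)) (i j : Fin 5) :
    (T5 * g) i j = g i j + if i = 0 then g 1 j else 0 := by
  unfold T5 Matrix.transvection
  rw [Matrix.add_mul, Matrix.one_mul, Matrix.add_apply]
  congr 1
  by_cases hi : i = 0
  · subst hi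
    simp [Matrix.mul_apply, Matrix.single_apply]
  · simp [Matrix.mul_apply, hi, Ne.symm hi]

theorem mul_T5_apply (g : Matrix (Fin 5) (Fin 5) (ZMod 2)) (i j : Fin 5) :
    (g * T5) i j = g i j + if j = 1 then g i 0 else 0 := by
  unfold T5 Matrix.transvection
  rw [Matrix.mul_add, Matrix.mul_one, Matrix.add_apply]
  congr 1
  by_cases hj : j = 1
  · subst hj
    simp [Matrix.mul_apply, Matrix.single_apply]
  · simp [Matrix.mul_apply, hj, Ne.symm hj]

theorem shape_of_comm {g : Matrix (Fin 5) (Fin 5) (ZMod 2)} (hc : T5 * g = g * T5)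
    (hd : g.det = 1) : Shape g := by
  have key : ∀ i j : Fin 5, (if i = 0 then g 1 j else 0) = (if j = 1 then g i 0 else 0) := by
    intro i j
    have h := congrFun (congrFun hc i) j
    rw [T5_mul_apply, mul_T5_apply] at h
    exact add_left_cancel h
  have col0 : ∀ i, i ≠ 0 → g i 0 = 0 := by
    intro i hi
    have := key i 1
    rw [if_neg hi, if_pos rfl] at this
    exact this.symm
  have row1 : ∀ j, j ≠ 1 → g 1 j = 0 := by
    intro j hj
    have := key 0 j
    rw [if_pos rfl, if_neg hj] at this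
    exact this
  have g00 : g 0 0 = 1 := by
    by_contra hne
    have h0 : g 0 0 = 0 := (by decide : ∀ x : ZMod 2, x ≠ 1 → x = 0) _ hne
    have hz : g.det = 0 := by
      apply Matrix.det_eq_zero_of_column_eq_zero 0
      intro i
      by_cases hi : i = 0
      · rw [hi]; exact h0
      · exact col0 i hi
    rw [hz] at hd
    exact absurd hd (by decide)
  have g11 : g 1 1 = 1 := by
    have := key 0 1
    rw [if_pos rfl, if_pos rfl] at this
    rw [this, g00]
  exact ⟨col0, row1, g00, g11⟩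

/-- the lower right block -/
def blk (g : Matrix (Fin 5) (Fin 5) (ZMod 2)) : Matrix (Fin 3) (Fin 3) (ZMod 2) :=
  g.submatrix e3 e3

theorem blk_mul {g h : Matrix (Fin 5) (Fin 5) (ZMod 2)} (hg : Shape g) (hh : Shape h) :
    blk (g * h) = blk g * blk h := by
  ext i j
  simp only [blk, Matrix.submatrix_apply, Matrix.mul_apply, Fin.sum_univ_five, Fin.sum_univ_three]
  rw [hg.col0 (e3 i) (e3_ne_zero i), hh.row1 (e3 j) (e3_ne_one j)]
  have e0 : e3 0 = 2 := rfl
  have e1 : e3 1 = 3 := rfl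
  have e2 : e3 2 = 4 := rfl
  rw [e0, e1, e2]
  ring

theorem blk_one : blk 1 = 1 := Matrix.submatrix_one e3 e3_injective

theorem shape_ext {g h : Matrix (Fin 5) (Fin 5) (ZMod 2)} (hg : Shape g) (hh : Shape h)
    (h1 : ∀ j : Fin 4, g 0 j.succ = h 0 j.succ) (h2 : ∀ i : Fin 3, g (e3 i) 1 = h (e3 i) 1)
    (h3 : blk g = blk h) : g = h := by
  ext i j
  by_cases hj0 : j = 0
  · subst hj0
    by_cases hi0 : i = 0
    · subst hi0; rw [hg.g00, hh.g00]
    · rw [hg.col0 i hi0, hh.col0 i hi0]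
  by_cases hi1 : i = 1
  · subst hi1
    by_cases hj1 : j = 1
    · subst hj1; rw [hg.g11, hh.g11]
    · rw [hg.row1 j hj1, hh.row1 j hj1]
  by_cases hi0 : i = 0
  · subst hi0
    obtain ⟨j', rfl⟩ := Fin.exists_succ_eq.2 hj0
    exact h1 j'
  obtain ⟨i', rfl⟩ := exists_e3 hi0 hi1
  by_cases hj1 : j = 1
  · subst hj1; exact h2 i'
  obtain ⟨j', rfl⟩ := exists_e3 hj0 hj1
  exact congrFun (congrFun h3 i') j'

variable (s : Matrix.SpecialLinearGroup (Fin 5) (ZMod 2))

theorem shape_of_mem (hs : (s : Matrix (Fin 5) (Fin 5) (ZMod 2)) = T5)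
    (g : Matrix.SpecialLinearGroup (Fin 5) (ZMod 2))
    (hg : g ∈ Subgroup.centralizer ({s} : Set (Matrix.SpecialLinearGroup (Fin 5) (ZMod 2)))) :
    Shape (g : Matrix (Fin 5) (Fin 5) (ZMod 2)) := by
  have h := Subgroup.mem_centralizer_iff.1 hg s rfl
  have h' := congrArg (fun x : Matrix.SpecialLinearGroup (Fin 5) (ZMod 2) =>
    (x : Matrix (Fin 5) (Fin 5) (ZMod 2))) h
  simp only [Matrix.SpecialLinearGroup.coe_mul, hs] at h'
  exact shape_of_comm h' g.2

/-- the block of an element of the centraliser, as an element of `GL(3, 2)` -/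
noncomputable def blkGL (hs : (s : Matrix (Fin 5) (Fin 5) (ZMod 2)) = T5)
    (g : ↥(Subgroup.centralizer ({s} : Set (Matrix.SpecialLinearGroup (Fin 5) (ZMod 2))))) :
    GL (Fin 3) (ZMod 2) where
  val := blk (g.1 : Matrix (Fin 5) (Fin 5) (ZMod 2))
  inv := blk ((g⁻¹).1 : Matrix (Fin 5) (Fin 5) (ZMod 2))
  val_inv := by
    rw [← blk_mul (shape_of_mem s hs g.1 g.2) (shape_of_mem s hs (g⁻¹).1 (g⁻¹).2),
      ← Matrix.SpecialLinearGroup.coe_mul, ← Subgroup.coe_mul, mul_inv_cancel]
    exact blk_one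
  inv_val := by
    rw [← blk_mul (shape_of_mem s hs (g⁻¹).1 (g⁻¹).2) (shape_of_mem s hs g.1 g.2),
      ← Matrix.SpecialLinearGroup.coe_mul, ← Subgroup.coe_mul, inv_mul_cancel]
    exact blk_one

theorem card_GL32 : Nat.card (GL (Fin 3) (ZMod 2)) = 168 := by
  rw [Matrix.card_GL_field]
  simp [Fin.prod_univ_three]

/-- the centraliser of the transvection has at most `21504` elements -/
theorem card_centralizer_le (hs : (s : Matrix (Fin 5) (Fin 5) (ZMod 2)) = T5) :
    Nat.card ↥(Subgroup.centralizer ({s} : Set (Matrix.SpecialLinearGroup (Fin 5) (ZMod 2)))) ≤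
      21504 := by
  let Ψ : ↥(Subgroup.centralizer ({s} : Set (Matrix.SpecialLinearGroup (Fin 5) (ZMod 2)))) →
      (Fin 4 → ZMod 2) × (Fin 3 → ZMod 2) × GL (Fin 3) (ZMod 2) :=
    fun g => (fun j => (g.1 : Matrix (Fin 5) (Fin 5) (ZMod 2)) 0 j.succ,
      fun i => (g.1 : Matrix (Fin 5) (Fin 5) (ZMod 2)) (e3 i) 1, blkGL s hs g)
  have hinj : Function.Injective Ψ := by
    intro g h e
    have e1 := congrArg Prod.fst e
    have e2 := congrArg (fun x => x.2.1) e
    have e3' := congrArg (fun x => (x.2.2 : Matrix (Fin 3) (Fin 3) (ZMod 2))) e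
    apply Subtype.ext
    apply Subtype.ext
    exact shape_ext (shape_of_mem s hs g.1 g.2) (shape_of_mem s hs h.1 h.2)
      (fun j => congrFun e1 j) (fun i => congrFun e2 i) e3'
  have h1 := Nat.card_le_card_of_injective Ψ hinj
  have h2 : Nat.card ((Fin 4 → ZMod 2) × (Fin 3 → ZMod 2) × GL (Fin 3) (ZMod 2)) = 21504 := by
    rw [Nat.card_prod, Nat.card_prod, card_GL32]
    simp [Nat.card_eq_fintype_card]
  rwa [h2] at h1

end Cfsg.Agent.Lib.Helper6.TC
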