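import Mathlib
import Cfsg.Agent.Lib.Helper6.CenAMat
import Cfsg.Agent.Lib.Helper6.TransvCen
import Cfsg.Agent.Lib.Helper6.TransvGenM
import Cfsg.Agent.Lib.Helper7.GolayOctad

set_option autoImplicit false

/-! # The centraliser of a `2A`-involution of `M₂₄`: structure `2^{1+6} : SL(3, 2)` -/

namespace Cfsg.Agent.Lib.Helper6.CI

open Cfsg Cfsg.Agent.Lib.Helper6.Golay Cfsg.Agent.Lib.Helper6.M24 Cfsg.Agent.Lib.Helper6.Cls

theorem perm_apply_inv {α : Type*} (f : Equiv.Perm α) (x : α) : f (f⁻¹ x) = x :=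
  Equiv.Perm.eq_inv_iff_eq.1 rfl

theorem conj_mul_conj {G : Type*} [Group G] (k a b : G) :
    k * a * k⁻¹ * (k * b * k⁻¹) = k * (a * b) * k⁻¹ := by
  simp only [mul_assoc, inv_mul_cancel_left]

/-- conjugation, as an isomorphism between centralisers -/
def conjCen {G : Type*} [Group G] (k z w : G) (h : k * z * k⁻¹ = w) :
    ↥(Subgroup.centralizer ({z} : Set G)) ≃* ↥(Subgroup.centralizer ({w} : Set G)) where
  toFun x := ⟨k * x.1 * k⁻¹, by
    refine Subgroup.mem_centralizer_iff.2 ?_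
    intro y hy
    rw [Set.mem_singleton_iff] at hy
    subst hy
    subst h
    have hx := Subgroup.mem_centralizer_iff.1 x.2 z rfl
    rw [conj_mul_conj, conj_mul_conj, hx]⟩
  invFun y := ⟨k⁻¹ * y.1 * k, by
    refine Subgroup.mem_centralizer_iff.2 ?_
    intro x hx
    rw [Set.mem_singleton_iff] at hx
    subst hx
    subst h
    have hy := Subgroup.mem_centralizer_iff.1 y.2 (k * x * k⁻¹) rfl
    have h1 : x * (k⁻¹ * y.1 * k) = k⁻¹ * (k * x * k⁻¹ * y.1) * k := by
      simp only [mul_assoc, inv_mul_cancel_left]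
    have h2 : k⁻¹ * y.1 * k * x = k⁻¹ * (y.1 * (k * x * k⁻¹)) * k := by
      simp only [mul_assoc, inv_mul_cancel, mul_one]
    rw [h1, h2, hy]⟩
  left_inv x := by
    apply Subtype.ext
    show k⁻¹ * (k * x.1 * k⁻¹) * k = x.1
    simp only [mul_assoc, inv_mul_cancel_left, inv_mul_cancel, mul_one]
  right_inv y := by
    apply Subtype.ext
    show k * (k⁻¹ * y.1 * k) * k⁻¹ = y.1
    simp only [mul_assoc, mul_inv_cancel_left, mul_inv_cancel, mul_one]
  map_mul' a b := by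
    apply Subtype.ext
    show k * (a.1 * b.1) * k⁻¹ = k * a.1 * k⁻¹ * (k * b.1 * k⁻¹)
    rw [conj_mul_conj]

/-- the centraliser of `UA` in `M₂₄` is isomorphic to the centraliser of a transvection -/
theorem cenUA_iso (s : Matrix.SpecialLinearGroup (Fin 5) (ZMod 2))
    (hs : (s : Matrix (Fin 5) (Fin 5) (ZMod 2)) = Matrix.transvection 0 1 1) :
    Nonempty (↥(Subgroup.centralizer ({(⟨UA, UA_mem⟩ : ↥Cfsg.M24)} : Set ↥Cfsg.M24)) ≃*
      ↥(Subgroup.centralizer ({s} : Set (Matrix.SpecialLinearGroup (Fin 5) (ZMod 2))))) := by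
  let z : ↥Cfsg.M24 := ⟨UA, UA_mem⟩
  have hmem : ∀ g : ↥(Subgroup.centralizer ({z} : Set ↥Cfsg.M24)),
      ((g : ↥Cfsg.M24) : Equiv.Perm GolayPt) ∈ cen UA := by
    intro g
    refine ⟨g.1.2, ?_⟩
    have h := Subgroup.mem_centralizer_iff.1 g.2 z rfl
    exact (congrArg Subtype.val h).symm
  let φ : ↥(Subgroup.centralizer ({z} : Set ↥Cfsg.M24)) →*
      ↥(Subgroup.centralizer ({s} : Set (Matrix.SpecialLinearGroup (Fin 5) (ZMod 2)))) :=
    { toFun := fun g => ⟨(⟨matOf ((g : ↥Cfsg.M24) : Equiv.Perm GolayPt), matOf_det (hmem g)⟩ :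
          Matrix.SpecialLinearGroup (Fin 5) (ZMod 2)), by
        refine Subgroup.mem_centralizer_iff.2 ?_
        intro h hh
        rw [Set.mem_singleton_iff] at hh
        subst hh
        apply Subtype.ext
        show (h : Matrix (Fin 5) (Fin 5) (ZMod 2)) * matOf ((g : ↥Cfsg.M24) : Equiv.Perm GolayPt) =
          matOf ((g : ↥Cfsg.M24) : Equiv.Perm GolayPt) * (h : Matrix (Fin 5) (Fin 5) (ZMod 2))
        rw [hs, ← matOf_UA, ← matOf_mul UA_mem_cen (hmem g), ← matOf_mul (hmem g) UA_mem_cen,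
          (hmem g).2]⟩
      map_one' := by
        apply Subtype.ext; apply Subtype.ext; exact matOf_one
      map_mul' := fun a b => by
        apply Subtype.ext; apply Subtype.ext; exact matOf_mul (hmem a) (hmem b) }
  have hinj : Function.Injective φ := by
    rw [injective_iff_map_eq_one]
    intro g hg
    have h1 : matOf ((g : ↥Cfsg.M24) : Equiv.Perm GolayPt) = 1 :=
      congrArg (fun x : ↥(Subgroup.centralizer ({s} : Set (Matrix.SpecialLinearGroup (Fin 5) (ZMod 2)))) =>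
        ((x : Matrix.SpecialLinearGroup (Fin 5) (ZMod 2)) : Matrix (Fin 5) (Fin 5) (ZMod 2))) hg
    have h2 := eq_one_of_matOf (hmem g) h1
    apply Subtype.ext; apply Subtype.ext; exact h2
  have hcard1 : 21504 ≤ Nat.card ↥(Subgroup.centralizer ({z} : Set ↥Cfsg.M24)) := by
    have e : ↥(cen UA) ≃ ↥(Subgroup.centralizer ({z} : Set ↥Cfsg.M24)) :=
      { toFun := fun c => ⟨⟨c.1, c.2.1⟩, by
          rw [Subgroup.mem_centralizer_iff]
          intro h hh
          rw [Set.mem_singleton_iff] at hh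
          subst hh
          apply Subtype.ext
          exact c.2.2.symm⟩
        invFun := fun g => ⟨((g : ↥Cfsg.M24) : Equiv.Perm GolayPt), hmem g⟩
        left_inv := fun _ => rfl
        right_inv := fun _ => rfl }
    rw [← Nat.card_congr e]
    exact card_cen_UA_ge
  have hcard2 := Cfsg.Agent.Lib.Helper6.TC.card_centralizer_le s hs
  have hbij : Function.Bijective φ := hinj.bijective_of_nat_card_le (le_trans hcard2 hcard1)
  exact ⟨MulEquiv.ofBijective φ hbij⟩

open Cfsg.Agent.Lib.Helper6.TG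

/-- the centraliser of an involution of `M₂₄` fixing an octad is isomorphic to the centraliser
of a transvection -/
theorem exists_iso (z : ↥Cfsg.M24) (hz : orderOf z = 2)
    (hfix : (Finset.univ.filter fun p : Cfsg.GolayPt => (z : Equiv.Perm Cfsg.GolayPt) p = p) ∈
      Cfsg.octads) (s : SLN 3) (hs : (s : MatN 3) = TT 3) :
    Nonempty (↥(Subgroup.centralizer ({z} : Set ↥Cfsg.M24)) ≃* ↥(Dg s)) := by
  have hz' : orderOf (z : Equiv.Perm GolayPt) = 2 := by
    rw [Subgroup.orderOf_coe]; exact hz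
  obtain ⟨h2, hne⟩ := sq_of_order_two hz'
  obtain ⟨p, hp⟩ := Finset.card_pos.1 (by rw [card_of_mem_octads hfix]; norm_num :
    0 < (Finset.univ.filter fun p : Cfsg.GolayPt => (z : Equiv.Perm Cfsg.GolayPt) p = p).card)
  have hp' : (z : Equiv.Perm GolayPt) p = p := (Finset.mem_filter.1 hp).2
  obtain ⟨k, hk, e⟩ := inv_conj_A z.2 h2 hne hp'
  have e' : (⟨k, hk⟩ : ↥Cfsg.M24) * z * (⟨k, hk⟩ : ↥Cfsg.M24)⁻¹ = ⟨UA, UA_mem⟩ := Subtype.ext e
  have hs' : (s : Matrix (Fin 5) (Fin 5) (ZMod 2)) = Matrix.transvection 0 1 1 :=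
    hs.trans (congrArg (fun j : Fin (3 + 2) => Matrix.transvection 0 j (1 : ZMod 2)) i1_eq_one)
  obtain ⟨f⟩ := cenUA_iso s hs'
  exact ⟨(conjCen _ _ _ e').trans f⟩

/-- the structure of the centraliser of an involution of `M₂₄` fixing an octad -/
theorem cenData_M24 (z : ↥Cfsg.M24) (hz : orderOf z = 2)
    (hfix : (Finset.univ.filter fun p : Cfsg.GolayPt => (z : Equiv.Perm Cfsg.GolayPt) p = p) ∈
      Cfsg.octads) (hzm : z ∈ Subgroup.centralizer ({z} : Set ↥Cfsg.M24)) :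
    ∃ QC : Subgroup ↥(Subgroup.centralizer ({z} : Set ↥Cfsg.M24)),
      CenData ↥(Subgroup.centralizer ({z} : Set ↥Cfsg.M24)) ⟨z, hzm⟩ QC (2 ^ 7)
        (Matrix.SpecialLinearGroup (Fin 3) (ZMod 2)) := by
  let s : SLN 3 := ⟨TT 3, Matrix.det_transvection_of_ne 0 i1 i1_ne_zero.symm 1⟩
  have hs : (s : MatN 3) = TT 3 := rfl
  obtain ⟨Φ⟩ := exists_iso z hz hfix s hs
  have d0 := cenData_Dg (by norm_num : 2 ≤ 3) hs
  have d := d0.transport Φ
  have hne : (⟨z, hzm⟩ : ↥(Subgroup.centralizer ({z} : Set ↥Cfsg.M24))) ≠ 1 := by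
    intro h
    have h1 : z = 1 := congrArg Subtype.val h
    rw [h1, orderOf_one] at hz
    exact absurd hz (by norm_num)
  have hΦ : Φ ⟨z, hzm⟩ = sc s := by
    have h1 := d0.cent (Φ ⟨z, hzm⟩) (fun q _ => by
      have h2 : (⟨z, hzm⟩ : ↥(Subgroup.centralizer ({z} : Set ↥Cfsg.M24))) * Φ.symm q =
          Φ.symm q * ⟨z, hzm⟩ := by
        apply Subtype.ext
        exact Subgroup.mem_centralizer_iff.1 (Φ.symm q).2 z rfl
      have h3 := congrArg Φ h2
      rwa [map_mul, map_mul, Φ.apply_symm_apply] at h3)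
    rcases h1 with h | h
    · exact absurd ((map_eq_one_iff Φ Φ.injective).1 h) hne
    · exact h
  have hΦ' : Φ.symm (sc s) = ⟨z, hzm⟩ := by
    rw [← hΦ, Φ.symm_apply_apply]
  rw [hΦ'] at d
  have e7 : 2 ^ (2 * 3 + 1) = 2 ^ 7 := by norm_num
  rw [e7] at d
  exact ⟨_, d⟩

/-! ### the pointwise stabiliser of an octad -/

/-- the pointwise stabiliser of a set of points in `M₂₄` -/
def octE (o : Finset GolayPt) : Subgroup ↥Cfsg.M24 where
  carrier := {g | ∀ p ∈ o, (g : Equiv.Perm GolayPt) p = p}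
  one_mem' := fun _ _ => rfl
  mul_mem' := by
    intro a b ha hb p hp
    show (a : Equiv.Perm GolayPt) ((b : Equiv.Perm GolayPt) p) = p
    rw [hb p hp, ha p hp]
  inv_mem' := by
    intro a ha p hp
    show (a : Equiv.Perm GolayPt)⁻¹ p = p
    rw [Equiv.Perm.inv_eq_iff_eq]
    exact (ha p hp).symm

theorem mem_octE {o : Finset GolayPt} {g : ↥Cfsg.M24} :
    g ∈ octE o ↔ ∀ p ∈ o, (g : Equiv.Perm GolayPt) p = p := Iff.rfl

theorem octE_card {o : Finset GolayPt} (ho : o ∈ Cfsg.octads) : Nat.card ↥(octE o) = 16 := by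
  rw [← (Cfsg.Agent.Lib.Helper7.octad_pointwise o ho).1]
  apply Nat.card_congr
  exact
    { toFun := fun g => ⟨g.1.1, ⟨g.1.2, (mem_fixingSubgroup_iff _).2 (fun p hp => g.2 p hp)⟩⟩
      invFun := fun x => ⟨⟨x.1, x.2.1⟩, fun p hp => (mem_fixingSubgroup_iff _).1 x.2.2 p hp⟩
      left_inv := fun _ => rfl
      right_inv := fun _ => rfl }

theorem octE_sq {o : Finset GolayPt} (ho : o ∈ Cfsg.octads) {g : ↥Cfsg.M24} (hg : g ∈ octE o) :
    g * g = 1 := by
  apply Subtype.ext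
  exact (Cfsg.Agent.Lib.Helper7.octad_pointwise o ho).2 g.1
    ⟨g.2, (mem_fixingSubgroup_iff _).2 (fun p hp => hg p hp)⟩

theorem comm_of_sq {G : Type*} [Group G] {a b : G} (ha : a * a = 1) (hb : b * b = 1)
    (hab : (a * b) * (a * b) = 1) : a * b = b * a := by
  have h1 : a⁻¹ = a := inv_eq_of_mul_eq_one_right ha
  have h2 : b⁻¹ = b := inv_eq_of_mul_eq_one_right hb
  have h3 : (a * b)⁻¹ = a * b := inv_eq_of_mul_eq_one_right hab
  rw [mul_inv_rev, h1, h2] at h3
  exact h3.symm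

theorem octE_comm {o : Finset GolayPt} (ho : o ∈ Cfsg.octads) {g h : ↥Cfsg.M24}
    (hg : g ∈ octE o) (hh : h ∈ octE o) : g * h = h * g :=
  comm_of_sq (octE_sq ho hg) (octE_sq ho hh) (octE_sq ho (Subgroup.mul_mem _ hg hh))

/-- the pointwise stabiliser of the octad of fixed points of `w` lies in the `2`-core of the
centraliser of `w` -/
theorem octE_le_core {o : Finset GolayPt} (ho : o ∈ Cfsg.octads) (w : ↥Cfsg.M24)
    (hw : ∀ p, (w : Equiv.Perm GolayPt) p = p ↔ p ∈ o) :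
    octE o ≤ (Cfsg.pCore 2 ↥(Subgroup.centralizer ({w} : Set ↥Cfsg.M24))).map
      (Subgroup.centralizer ({w} : Set ↥Cfsg.M24)).subtype := by
  have hwE : w ∈ octE o := fun p hp => (hw p).2 hp
  have hle : octE o ≤ Subgroup.centralizer ({w} : Set ↥Cfsg.M24) := by
    intro g hg
    rw [Subgroup.mem_centralizer_iff]
    intro x hx
    rw [Set.mem_singleton_iff] at hx
    subst hx
    exact octE_comm ho hwE hg
  have hnorm : ((octE o).subgroupOf (Subgroup.centralizer ({w} : Set ↥Cfsg.M24))).Normal := by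
    constructor
    intro g hg h
    rw [Subgroup.mem_subgroupOf] at hg ⊢
    intro p hp
    have hc := Subgroup.mem_centralizer_iff.1 h.2 w rfl
    have hc' : (w : Equiv.Perm GolayPt) * (h.1 : Equiv.Perm GolayPt) =
        (h.1 : Equiv.Perm GolayPt) * (w : Equiv.Perm GolayPt) := congrArg Subtype.val hc
    have hq : (h.1 : Equiv.Perm GolayPt)⁻¹ p ∈ o := by
      rw [← hw]
      have h1 := Equiv.Perm.congr_fun hc' ((h.1 : Equiv.Perm GolayPt)⁻¹ p)
      rw [Equiv.Perm.mul_apply, Equiv.Perm.mul_apply, perm_apply_inv, (hw p).2 hp] at h1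
      rw [Equiv.Perm.eq_inv_iff_eq]
      exact h1.symm
    show (h.1 : Equiv.Perm GolayPt) ((g.1 : Equiv.Perm GolayPt)
      ((h.1 : Equiv.Perm GolayPt)⁻¹ p)) = p
    rw [hg _ hq, perm_apply_inv]
  have hp2 : IsPGroup 2 ↥((octE o).subgroupOf (Subgroup.centralizer ({w} : Set ↥Cfsg.M24))) := by
    intro g
    refine ⟨1, ?_⟩
    apply Subtype.ext
    apply Subtype.ext
    rw [pow_one, pow_two]
    exact octE_sq ho (Subgroup.mem_subgroupOf.1 g.2)
  have hcore : (octE o).subgroupOf (Subgroup.centralizer ({w} : Set ↥Cfsg.M24)) ≤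
      Cfsg.pCore 2 ↥(Subgroup.centralizer ({w} : Set ↥Cfsg.M24)) :=
    le_sSup ⟨hnorm, hp2⟩
  intro g hg
  exact ⟨⟨g, hle hg⟩, hcore (Subgroup.mem_subgroupOf.2 hg), rfl⟩

end Cfsg.Agent.Lib.Helper6.CI
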