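import Mathlib
import Cfsg.Agent.Lib.Helper5.PSL2

/-!
# `GL(5, 2)`: order, 3-elements; an element of order 9 in `PSL(2, 8)`
-/

set_option autoImplicit false

namespace Cfsg.Agent.Lib.Helper6.GL5

open Matrix

theorem card_GL5 : Nat.card (GL (Fin 5) (ZMod 2)) = 9999360 := by
  rw [Matrix.card_GL_field]
  simp [Fin.prod_univ_five, ZMod.card]

/-- an element of order 3 -/
def mA : Matrix (Fin 5) (Fin 5) (ZMod 2) :=
  !![0, 1, 0, 0, 0; 1, 1, 0, 0, 0; 0, 0, 1, 0, 0; 0, 0, 0, 1, 0; 0, 0, 0, 0, 1]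

/-- a second element of order 3 -/
def mB : Matrix (Fin 5) (Fin 5) (ZMod 2) :=
  !![1, 0, 0, 0, 0; 0, 1, 0, 0, 0; 0, 0, 0, 1, 0; 0, 0, 1, 1, 0; 0, 0, 0, 0, 1]

theorem mA_cube : mA * mA * mA = 1 := by decide
theorem mB_cube : mB * mB * mB = 1 := by decide
theorem mAB : mA * mB = mB * mA := by decide

/-- `mA` as an element of `GL(5, 2)` -/
def gA : GL (Fin 5) (ZMod 2) := ⟨mA, mA * mA, by rw [← mul_assoc]; exact mA_cube, mA_cube⟩

/-- `mB` as an element of `GL(5, 2)` -/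
def gB : GL (Fin 5) (ZMod 2) := ⟨mB, mB * mB, by rw [← mul_assoc]; exact mB_cube, mB_cube⟩

theorem gA_cube : gA ^ 3 = 1 := by
  apply Units.ext
  show mA ^ 3 = 1
  rw [pow_succ, pow_two]; exact mA_cube

theorem gB_cube : gB ^ 3 = 1 := by
  apply Units.ext
  show mB ^ 3 = 1
  rw [pow_succ, pow_two]; exact mB_cube

theorem gAB : Commute gA gB := by
  apply Units.ext
  exact mAB

theorem gA_ne_one : (1 : GL (Fin 5) (ZMod 2)) ≠ gA := fun h =>
  absurd (congrArg Units.val h) (by show (1 : Matrix (Fin 5) (Fin 5) (ZMod 2)) ≠ mA; decide)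

theorem gA2_ne_one : (1 : GL (Fin 5) (ZMod 2)) ≠ gA ^ 2 := fun h =>
  absurd (congrArg Units.val h) (by
    show (1 : Matrix (Fin 5) (Fin 5) (ZMod 2)) ≠ mA ^ 2
    rw [pow_two]; decide)

theorem gB_ne_one : (1 : GL (Fin 5) (ZMod 2)) ≠ gB := fun h =>
  absurd (congrArg Units.val h) (by show (1 : Matrix (Fin 5) (Fin 5) (ZMod 2)) ≠ mB; decide)

theorem gA_ne_gA2 : gA ≠ gA ^ 2 := fun h =>
  absurd (congrArg Units.val h) (by
    show mA ≠ mA ^ 2
    rw [pow_two]; decide)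

theorem gA_ne_gB : gA ≠ gB := fun h =>
  absurd (congrArg Units.val h) (by show mA ≠ mB; decide)

theorem gA2_ne_gB : gA ^ 2 ≠ gB := fun h =>
  absurd (congrArg Units.val h) (by
    show mA ^ 2 ≠ mB
    rw [pow_two]; decide)

/-- the elementary abelian subgroup of order 9 -/
def E : Subgroup (GL (Fin 5) (ZMod 2)) where
  carrier := {x | ∃ i j : ℕ, x = gA ^ i * gB ^ j}
  mul_mem' := by
    rintro _ _ ⟨i, j, rfl⟩ ⟨i', j', rfl⟩
    refine ⟨i + i', j + j', ?_⟩
    rw [pow_add, pow_add]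
    exact Commute.mul_mul_mul_comm (gAB.pow_pow i' j).symm _ _
  one_mem' := ⟨0, 0, by simp⟩
  inv_mem' := by
    rintro _ ⟨i, j, rfl⟩
    refine ⟨2 * i, 2 * j, ?_⟩
    apply inv_eq_of_mul_eq_one_right
    rw [Commute.mul_mul_mul_comm (gAB.pow_pow (2 * i) j).symm, ← pow_add, ← pow_add]
    have e1 : i + 2 * i = 3 * i := by ring
    have e2 : j + 2 * j = 3 * j := by ring
    rw [e1, e2, pow_mul, pow_mul, gA_cube, gB_cube, one_pow, one_pow, one_mul]

theorem E_cube (x : GL (Fin 5) (ZMod 2)) (hx : x ∈ E) : x ^ 3 = 1 := by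
  obtain ⟨i, j, rfl⟩ := hx
  rw [(gAB.pow_pow i j).mul_pow, ← pow_mul, ← pow_mul, mul_comm i 3, mul_comm j 3, pow_mul,
    pow_mul, gA_cube, gB_cube, one_pow, one_pow, one_mul]

theorem gA_mem : gA ∈ E := ⟨1, 0, by simp⟩
theorem gB_mem : gB ∈ E := ⟨0, 1, by simp⟩

theorem four_le_card_E : 4 ≤ Nat.card E := by
  have hsub : ({1, gA, gA ^ 2, gB} : Set (GL (Fin 5) (ZMod 2))) ⊆ (E : Set _) := by
    intro y hy
    rcases hy with rfl | rfl | rfl | rfl
    · exact E.one_mem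
    · exact gA_mem
    · exact E.pow_mem gA_mem 2
    · exact gB_mem
  have hcard4 : ({1, gA, gA ^ 2, gB} : Set (GL (Fin 5) (ZMod 2))).ncard = 4 := by
    have h1 : (1 : GL (Fin 5) (ZMod 2)) ∉ ({gA, gA ^ 2, gB} : Set _) := by
      rintro (h | h | h)
      · exact gA_ne_one h
      · exact gA2_ne_one h
      · exact gB_ne_one h
    have h2 : gA ∉ ({gA ^ 2, gB} : Set (GL (Fin 5) (ZMod 2))) := by
      rintro (h | h)
      · exact gA_ne_gA2 h
      · exact gA_ne_gB h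
    have h3 : gA ^ 2 ∉ ({gB} : Set (GL (Fin 5) (ZMod 2))) := by
      rintro h
      exact gA2_ne_gB (Set.mem_singleton_iff.1 h)
    rw [Set.ncard_insert_of_notMem h1, Set.ncard_insert_of_notMem h2,
      Set.ncard_insert_of_notMem h3, Set.ncard_singleton]
  have := Set.ncard_le_ncard hsub (Set.toFinite _)
  rw [hcard4] at this
  exact this

/-- Every 3-element of `GL(5, 2)` has order dividing 3. -/
theorem three_elt (g : GL (Fin 5) (ZMod 2)) (k : ℕ) (h : g ^ 3 ^ k = 1) : g ^ 3 = 1 := by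
  classical
  have : Fact (Nat.Prime 3) := ⟨by norm_num⟩
  have hE : IsPGroup 3 E := fun x => ⟨1, by
    apply Subtype.ext
    rw [pow_one, Subgroup.coe_pow, E_cube x.1 x.2, Subgroup.coe_one]⟩
  obtain ⟨P, hEP⟩ := hE.exists_le_sylow
  obtain ⟨n, hn⟩ := IsPGroup.iff_card.1 P.isPGroup'
  have hn2 : n ≤ 2 := by
    by_contra hcon
    have h27 : 3 ^ 3 ∣ 3 ^ n := Nat.pow_dvd_pow 3 (by omega)
    have hdvd : 3 ^ n ∣ 9999360 := by
      rw [← hn, ← card_GL5]
      exact Subgroup.card_subgroup_dvd_card _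
    have := h27.trans hdvd
    norm_num at this
  have hEdvd : Nat.card E ∣ 3 ^ n := by
    rw [← hn]; exact Subgroup.card_dvd_of_le hEP
  obtain ⟨j, hj, hEj⟩ := (Nat.dvd_prime_pow (by norm_num)).1 hEdvd
  have h4 := four_le_card_E
  have hj2 : j = 2 := by
    rw [hEj] at h4
    interval_cases n <;> interval_cases j <;> simp_all
  have hn2' : n = 2 := by omega
  have hPE : (P : Subgroup (GL (Fin 5) (ZMod 2))) = E := by
    symm
    apply Subgroup.eq_of_le_of_card_ge hEP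
    rw [hn, hEj, hj2, hn2']
  have hP3 : ∀ x ∈ (P : Subgroup (GL (Fin 5) (ZMod 2))), x ^ 3 = 1 := by
    intro x hx
    rw [hPE] at hx
    exact E_cube x hx
  have hg : IsPGroup 3 (Subgroup.zpowers g) := by
    have hdvd : orderOf g ∣ 3 ^ k := orderOf_dvd_of_pow_eq_one h
    obtain ⟨i, -, hi⟩ := (Nat.dvd_prime_pow (by norm_num)).1 hdvd
    exact IsPGroup.of_card (n := i) (by rw [Nat.card_zpowers, hi])
  obtain ⟨Q, hgQ⟩ := hg.exists_le_sylow
  obtain ⟨c, hc⟩ := MulAction.exists_smul_eq (GL (Fin 5) (ZMod 2)) P Q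
  have hgQ' : g ∈ (Q : Subgroup (GL (Fin 5) (ZMod 2))) := hgQ (Subgroup.mem_zpowers g)
  rw [← hc, Sylow.coe_subgroup_smul, Subgroup.mem_pointwise_smul_iff_inv_smul_mem] at hgQ'
  have h3 := hP3 _ hgQ'
  have e : (MulAut.conj c)⁻¹ • g = c⁻¹ * g * c := by
    rw [MulAut.smul_def, MulAut.conj_inv_apply]
  rw [e] at h3
  have e2 : (c⁻¹ * g * c) ^ 3 = c⁻¹ * g ^ 3 * c := by
    simp only [pow_succ, pow_zero, one_mul, mul_assoc, mul_inv_cancel_left]
  rw [e2] at h3
  have := congrArg (fun x => c * x * c⁻¹) h3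
  simpa [mul_assoc] using this

/-- `PSL(2, 8)` has an element of order 9. -/
theorem exists_order_nine {F : Type*} [Field F] [Fintype F] (hF : Fintype.card F = 8) :
    ∃ y : Matrix.ProjectiveSpecialLinearGroup (Fin 2) F, y ^ 9 = 1 ∧ y ^ 3 ≠ 1 := by
  classical
  have h2 : (2 : F) = 0 := by
    have h8 : ((Fintype.card F : ℕ) : F) = 0 := Nat.cast_card_eq_zero F
    rw [hF] at h8
    have h : (2 : F) ^ 3 = 0 := by
      have : ((8 : ℕ) : F) = (2 : F) ^ 3 := by norm_num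
      rw [← this]; exact h8
    exact (pow_eq_zero_iff (by norm_num)).1 h
  obtain ⟨s, hs0, hs1⟩ : ∃ s : F, s ≠ 0 ∧ s ≠ 1 := by
    by_contra hcon
    push Not at hcon
    have hinj : Function.Injective (fun s : F => decide (s = 0)) := by
      intro a b hab
      by_cases ha : a = 0
      · by_cases hb : b = 0
        · rw [ha, hb]
        · simp [ha, hb] at hab
      · by_cases hb : b = 0
        · simp [ha, hb] at hab
        · rw [hcon a ha, hcon b hb]
    have := Fintype.card_le_of_injective _ hinj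
    rw [hF, Fintype.card_bool] at this
    omega
  have hs7 : s ^ 7 = 1 := by
    have := FiniteField.pow_card_sub_one_eq_one s hs0
    rwa [hF] at this
  have hfac : (s ^ 3 + s + 1) * (s ^ 3 + s ^ 2 + 1) = 0 := by
    have h : (s - 1) * ((s ^ 3 + s + 1) * (s ^ 3 + s ^ 2 + 1)) = 0 := by
      linear_combination hs7 + (s ^ 4 - s ^ 3) * h2
    exact (mul_eq_zero.1 h).resolve_left (sub_ne_zero.2 hs1)
  obtain ⟨t, ht⟩ : ∃ t : F, t ^ 3 + t + 1 = 0 := by
    rcases mul_eq_zero.1 hfac with h | h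
    · exact ⟨s, h⟩
    · exact ⟨s + 1, by linear_combination h + (s ^ 2 + 2 * s + 1) * h2⟩
  let M : Matrix.SpecialLinearGroup (Fin 2) F := ⟨!![0, 1; 1, t], by
    rw [Matrix.det_fin_two_of]
    linear_combination (-1 : F) * h2⟩
  have hM9 : M ^ 9 = 1 := by
    apply Subtype.ext
    rw [Matrix.SpecialLinearGroup.coe_pow, Matrix.SpecialLinearGroup.coe_one]
    show (!![0, 1; 1, t] : Matrix (Fin 2) (Fin 2) F) ^ 9 = 1
    ext i j
    fin_cases i <;> fin_cases j
    · simp [pow_succ, Matrix.mul_apply, Fin.sum_univ_two]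
      linear_combination (5 - t + 5 * t ^ 2 + t ^ 4) * ht + (-3 - 2 * t ^ 2) * h2
    · simp [pow_succ, Matrix.mul_apply, Fin.sum_univ_two]
      linear_combination (-5 + 9 * t - t ^ 2 + 6 * t ^ 3 + t ^ 5) * ht + (3 - 2 * t + t ^ 2) * h2
    · simp [pow_succ, Matrix.mul_apply, Fin.sum_univ_two]
      linear_combination (-5 + 9 * t - t ^ 2 + 6 * t ^ 3 + t ^ 5) * ht + (3 - 2 * t + t ^ 2) * h2
    · simp [pow_succ, Matrix.mul_apply, Fin.sum_univ_two]
      linear_combination (7 - 6 * t + 14 * t ^ 2 - t ^ 3 + 7 * t ^ 4 + t ^ 6) * ht +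
        (-4 + 2 * t - 4 * t ^ 2) * h2
  have hM3 : M ^ 3 ≠ 1 := by
    intro h
    have h01 := congrArg (fun X : Matrix.SpecialLinearGroup (Fin 2) F => X.1 0 1) h
    simp only [Matrix.SpecialLinearGroup.coe_pow, Matrix.SpecialLinearGroup.coe_one] at h01
    have e : ((!![0, 1; 1, t] : Matrix (Fin 2) (Fin 2) F) ^ 3) 0 1 = t ^ 2 + 1 := by
      simp [pow_succ, Matrix.mul_apply, Fin.sum_univ_two]
      ring
    have h01' : t ^ 2 + 1 = 0 := by
      rw [← e]
      simpa using h01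
    have ht1 : (t + 1) ^ 2 = 0 := by linear_combination h01' + t * h2
    have ht1' : t + 1 = 0 := (pow_eq_zero_iff (by norm_num)).1 ht1
    have : (1 : F) = 0 := by
      linear_combination ht - (t ^ 2 - t + 2) * ht1' + h2
    exact one_ne_zero this
  refine ⟨QuotientGroup.mk M, ?_, ?_⟩
  · rw [← QuotientGroup.mk_pow, hM9]; rfl
  · rw [← QuotientGroup.mk_pow]
    intro h
    have hmem : M ^ 3 ∈ Subgroup.center (Matrix.SpecialLinearGroup (Fin 2) F) :=
      (QuotientGroup.eq_one_iff _).1 h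
    rw [Cfsg.Agent.Lib.Helper5.center_SL2_eq_bot_of_two_eq_zero h2, Subgroup.mem_bot] at hmem
    exact hM3 hmem

end Cfsg.Agent.Lib.Helper6.GL5
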