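import Mathlib

/-!
# Automorphisms of the Sylow 2-subgroup of `U₃(4)`

`T` is a group with coordinates `c : T → F × F` (`F` of characteristic 2) and product
`(a, b)(a₁, b₁) = (a + a₁, b + b₁ + a⁴ a₁)`.  Squaring is `(a, b) ↦ (0, a⁵)`, and the key fact
is that `x² = y² = (xy)²` forces `x` central.  Consequences: an automorphism of order 3 moves
a central element, and no involutory automorphism moves a central element (when `|T| = 64`,
`|Z(T)| = 4`).  Hence `Aut T` has no subgroup isomorphic to `S₃`.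
-/

set_option autoImplicit false
set_option linter.unusedSectionVars false

namespace Cfsg.Agent.Lib.Helper6.SuzAut

section field

variable {F : Type*} [Field F] [CharP F 2]

/-- The norm `a ↦ a⁵` takes no common value on `u`, `v`, `u + v` unless `u = 0`. -/
theorem kf_field (u v : F) (h1 : u ^ 5 = v ^ 5) (h2 : (u + v) ^ 5 = u ^ 5) : u = 0 := by
  have h2F : (2 : F) = 0 := CharTwo.two_eq_zero
  by_contra hu
  have e2 : u * (u ^ 3 * v + v ^ 4 + u ^ 4) = 0 := by
    linear_combination h2 + h1 -
      (2 * u ^ 4 * v + 5 * u ^ 3 * v ^ 2 + 5 * u ^ 2 * v ^ 3 + 2 * u * v ^ 4) * h2F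
  have e3 : u ^ 3 * v + v ^ 4 + u ^ 4 = 0 := (mul_eq_zero.1 e2).resolve_left hu
  have e4' : u ^ 3 * (v ^ 2 + u * v + u ^ 2) = 0 := by
    linear_combination v * e3 + h1
  have e4 : v ^ 2 + u * v + u ^ 2 = 0 := (mul_eq_zero.1 e4').resolve_left (pow_ne_zero 3 hu)
  have e5 : v ^ 3 = u ^ 3 := by
    linear_combination (v + u) * e4 - (u * v ^ 2 + u ^ 2 * v + u ^ 3) * h2F
  have e6' : u ^ 3 * ((v + u) * (v + u)) = 0 := by
    linear_combination (-1 : F) * h1 - v ^ 2 * e5 + (u ^ 5 + u ^ 4 * v) * h2F
  have e6 : (v + u) * (v + u) = 0 := (mul_eq_zero.1 e6').resolve_left (pow_ne_zero 3 hu)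
  have e7 : v + u = 0 := mul_self_eq_zero.1 e6
  have e8 : u ^ 2 = 0 := by
    linear_combination e4 - v * e7
  exact hu (pow_eq_zero_iff (two_ne_zero) |>.1 e8)

end field

section group

variable {F : Type*} [Field F] [CharP F 2] {T : Type*} [Group T]
  (c : T → F × F) (hinj : Function.Injective c)
  (hmul : ∀ x y, c (x * y) = ((c x).1 + (c y).1, (c x).2 + (c y).2 + (c x).1 ^ 4 * (c y).1))
include hinj hmul

theorem fst_mul (x y : T) : (c (x * y)).1 = (c x).1 + (c y).1 := by rw [hmul]

theorem snd_mul (x y : T) : (c (x * y)).2 = (c x).2 + (c y).2 + (c x).1 ^ 4 * (c y).1 := by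
  rw [hmul]

theorem c_one : c 1 = (0, 0) := by
  have h1 := fst_mul c hinj hmul 1 1
  have h2 := snd_mul c hinj hmul 1 1
  rw [mul_one] at h1 h2
  have ha : (c 1).1 = 0 := by linear_combination (-1 : F) * h1
  rw [ha] at h2
  have hb : (c 1).2 = 0 := by linear_combination (-1 : F) * h2
  exact Prod.ext ha hb

theorem fst_one : (c 1).1 = 0 := by rw [c_one c hinj hmul]

theorem fst_inv (x : T) : (c x⁻¹).1 = (c x).1 := by
  have h := fst_mul c hinj hmul x x⁻¹
  rw [mul_inv_cancel, fst_one c hinj hmul] at h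
  exact (CharTwo.add_eq_zero.1 h.symm).symm

theorem sq_coord (x : T) : c (x * x) = (0, (c x).1 ^ 5) := by
  rw [hmul]
  apply Prod.ext
  · exact CharTwo.add_self_eq_zero _
  · show (c x).2 + (c x).2 + (c x).1 ^ 4 * (c x).1 = (c x).1 ^ 5
    rw [CharTwo.add_self_eq_zero, zero_add]
    ring

theorem sq_eq_of_fst {x y : T} (h : (c x).1 = (c y).1) : x * x = y * y := by
  apply hinj
  rw [sq_coord c hinj hmul, sq_coord c hinj hmul, h]

theorem sq_eq_one_iff (x : T) : x * x = 1 ↔ (c x).1 = 0 := by
  constructor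
  · intro h
    have h1 := congrArg c h
    rw [sq_coord c hinj hmul, c_one c hinj hmul] at h1
    have h2 : (c x).1 ^ 5 = 0 := congrArg Prod.snd h1
    exact (pow_eq_zero_iff (by norm_num)).1 h2
  · intro h
    apply hinj
    rw [sq_coord c hinj hmul, c_one c hinj hmul, h]
    simp

theorem central_of_fst {z : T} (h : (c z).1 = 0) (y : T) : z * y = y * z := by
  apply hinj
  rw [hmul, hmul, h]
  apply Prod.ext
  · simp [add_comm]
  · simp [add_comm]

theorem fst_sq (x : T) : (c (x * x)).1 = 0 := by rw [sq_coord c hinj hmul]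

theorem aut_fst_zero (φ : MulAut T) (x : T) : (c (φ x)).1 = 0 ↔ (c x).1 = 0 := by
  rw [← sq_eq_one_iff c hinj hmul, ← sq_eq_one_iff c hinj hmul, ← map_mul]
  constructor
  · intro h
    exact φ.injective (h.trans (map_one φ).symm)
  · intro h
    rw [h, map_one]

/-- the key fact -/
theorem kf {x y : T} (h1 : x * x = y * y) (h2 : (x * y) * (x * y) = x * x) : (c x).1 = 0 := by
  have e1 := congrArg (fun p => (c p).2) h1
  have e2 := congrArg (fun p => (c p).2) h2
  simp only [sq_coord c hinj hmul, fst_mul c hinj hmul] at e1 e2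
  exact kf_field _ _ e1 e2

/-- the subgroup `a = 0` -/
def Zs : Subgroup T where
  carrier := {x | (c x).1 = 0}
  mul_mem' := by
    intro a b ha hb
    show (c (a * b)).1 = 0
    rw [fst_mul c hinj hmul, ha, hb, add_zero]
  one_mem' := fst_one c hinj hmul
  inv_mem' := by
    intro a ha
    show (c a⁻¹).1 = 0
    rw [fst_inv c hinj hmul]; exact ha

theorem mem_Zs (x : T) : x ∈ Zs c hinj hmul ↔ (c x).1 = 0 := Iff.rfl

theorem Zs_le_center : Zs c hinj hmul ≤ Subgroup.center T := by
  intro z hz
  rw [Subgroup.mem_center_iff]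
  intro g
  exact (central_of_fst c hinj hmul hz g).symm

/-- An automorphism of order dividing 3 fixing the centre pointwise is trivial. -/
theorem aut_three (ρ : MulAut T) (h3 : ρ * ρ * ρ = 1)
    (hfix : ∀ z, (c z).1 = 0 → ρ z = z) : ρ = 1 := by
  have h3' : ∀ x, ρ (ρ (ρ x)) = x := fun x => by
    have := congrArg (fun f : MulAut T => f x) h3
    simpa [MulAut.mul_apply] using this
  have key : ∀ x : T, (c (x⁻¹ * ρ x)).1 = 0 := by
    intro x
    set w := x⁻¹ * ρ x with hw
    have hww : ρ (w * w) = w * w := hfix _ (fst_sq c hinj hmul w)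
    have e1 : w * w = ρ w * ρ w := by rw [← map_mul, hww]
    have e2 : (w * ρ w) * (w * ρ w) = w * w := by
      have hfst : (c (w * ρ w)).1 = (c (ρ (ρ w))).1 := by
        rw [fst_mul c hinj hmul, hw]
        simp only [map_mul, map_inv, fst_mul c hinj hmul, fst_inv c hinj hmul, h3']
        have := CharTwo.add_self_eq_zero (c (ρ x)).1
        linear_combination this
      rw [sq_eq_of_fst c hinj hmul hfst, ← map_mul, ← map_mul, hww, hww]
    exact kf c hinj hmul e1 e2
  have h2 : ∀ x, ρ (ρ x) = x := by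
    intro x
    have hw := key x
    have hρw : ρ (x⁻¹ * ρ x) = x⁻¹ * ρ x := hfix _ hw
    have hsq : (x⁻¹ * ρ x) * (x⁻¹ * ρ x) = 1 := (sq_eq_one_iff c hinj hmul _).2 hw
    have e : ρ x = x * (x⁻¹ * ρ x) := by group
    calc ρ (ρ x) = ρ (x * (x⁻¹ * ρ x)) := by rw [← e]
      _ = ρ x * ρ (x⁻¹ * ρ x) := map_mul _ _ _
      _ = x * (x⁻¹ * ρ x) * (x⁻¹ * ρ x) := by rw [hρw, ← e]
      _ = x * ((x⁻¹ * ρ x) * (x⁻¹ * ρ x)) := by group
      _ = x := by rw [hsq, mul_one]
  apply MulEquiv.ext
  intro x
  have := h3' x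
  rw [h2] at this
  exact this

omit hinj hmul in
theorem card_le_two_mul {G : Type*} [Group G] [Finite G] (E : Subgroup G)
    (h : ∀ v₁ v₂ : G, v₁ ∈ E ∨ v₂ ∈ E ∨ v₁⁻¹ * v₂ ∈ E) : Nat.card G ≤ 2 * Nat.card E := by
  classical
  by_cases htop : ∀ v, v ∈ E
  · have : Nat.card G ≤ Nat.card E :=
      Nat.card_le_card_of_injective (fun v => (⟨v, htop v⟩ : E)) (fun a b hab => by
        simpa using congrArg Subtype.val hab)
    omega
  · push Not at htop
    obtain ⟨v₀, hv₀⟩ := htop
    let f : G → Bool × E := fun v =>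
      if hv : v ∈ E then (false, ⟨v, hv⟩)
      else (true, ⟨v₀⁻¹ * v, by
        rcases h v₀ v with h1 | h1 | h1
        · exact absurd h1 hv₀
        · exact absurd h1 hv
        · exact h1⟩)
    have hf : Function.Injective f := by
      intro a b hab
      by_cases ha : a ∈ E <;> by_cases hb : b ∈ E
      · simp only [f, dif_pos ha, dif_pos hb, Prod.mk.injEq, Subtype.mk.injEq, true_and] at hab
        exact hab
      · simp only [f, dif_pos ha, dif_neg hb, Prod.mk.injEq] at hab
        exact absurd hab.1 (by decide)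
      · simp only [f, dif_neg ha, dif_pos hb, Prod.mk.injEq] at hab
        exact absurd hab.1 (by decide)
      · simp only [f, dif_neg ha, dif_neg hb, Prod.mk.injEq, Subtype.mk.injEq, true_and] at hab
        exact mul_left_cancel hab
    have := Nat.card_le_card_of_injective f hf
    rw [Nat.card_prod, Nat.card_eq_fintype_card (α := Bool), Fintype.card_bool] at this
    exact this

/-- No involutory automorphism moves a central element. -/
theorem no_invol [Finite T] (hcardT : Nat.card T = 64)
    (hcardZ : Nat.card (Subgroup.center T) = 4) (t : MulAut T) (ht : t * t = 1)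
    (z₁ : T) (hz₁ : (c z₁).1 = 0) (hmove : t z₁ ≠ z₁) : False := by
  have h2F : ∀ a : F, a + a = 0 := CharTwo.add_self_eq_zero
  have htt : ∀ x, t (t x) = x := fun x => by
    have := congrArg (fun f : MulAut T => f x) ht
    simpa [MulAut.mul_apply] using this
  have hZcard : Nat.card (Zs c hinj hmul) ≤ 4 := by
    rw [← hcardZ]
    exact Subgroup.card_le_of_le (Zs_le_center c hinj hmul)
  -- two fixed nontrivial central elements coincide
  have TF : ∀ z z' : T, (c z).1 = 0 → (c z').1 = 0 → t z = z → t z' = z' → z ≠ 1 → z' ≠ 1 →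
      z = z' := by
    intro z z' hz hz' htz htz' hz1 hz'1
    by_contra hne
    have hzz : z * z = 1 := (sq_eq_one_iff c hinj hmul z).2 hz
    have hsub : ({1, z, z', z * z'} : Set T) ⊆ (Zs c hinj hmul : Set T) := by
      intro y hy
      rcases hy with rfl | rfl | rfl | rfl
      · exact (Zs c hinj hmul).one_mem
      · exact hz
      · exact hz'
      · exact (Zs c hinj hmul).mul_mem hz hz'
    have hcard4 : ({1, z, z', z * z'} : Set T).ncard = 4 := by
      have h1 : (1 : T) ∉ ({z, z', z * z'} : Set T) := by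
        rintro (h | h | h)
        · exact hz1 h.symm
        · exact hz'1 h.symm
        · apply hne
          have : z' = z⁻¹ := eq_inv_of_mul_eq_one_right h.symm
          rw [this]
          exact (inv_eq_of_mul_eq_one_right hzz).symm
      have h2 : z ∉ ({z', z * z'} : Set T) := by
        rintro (h | h)
        · exact hne h
        · exact hz'1 (by simpa using h.symm)
      have h3 : z' ∉ ({z * z'} : Set T) := by
        rintro h
        exact hz1 (by simpa using (Set.mem_singleton_iff.1 h).symm)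
      rw [Set.ncard_insert_of_notMem h1, Set.ncard_insert_of_notMem h2,
        Set.ncard_insert_of_notMem h3, Set.ncard_singleton]
    have heq : ({1, z, z', z * z'} : Set T) = (Zs c hinj hmul : Set T) := by
      apply Set.eq_of_subset_of_ncard_le hsub _ (Set.toFinite _)
      rw [hcard4]
      have : (Zs c hinj hmul : Set T).ncard = Nat.card (Zs c hinj hmul) := rfl
      rw [this]
      exact hZcard
    have hz₁mem : z₁ ∈ ({1, z, z', z * z'} : Set T) := by
      rw [heq]; exact hz₁
    rcases hz₁mem with rfl | rfl | rfl | rfl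
    · exact hmove (map_one t)
    · exact hmove htz
    · exact hmove htz'
    · exact hmove (by rw [map_mul, htz, htz'])
  -- the subgroup of elements fixed modulo the centre
  let E : Subgroup T :=
    { carrier := {x | (c (t x)).1 = (c x).1}
      mul_mem' := by
        intro a b ha hb
        show (c (t (a * b))).1 = (c (a * b)).1
        rw [map_mul, fst_mul c hinj hmul, fst_mul c hinj hmul, ha, hb]
      one_mem' := by
        show (c (t 1)).1 = (c 1).1
        rw [map_one]
      inv_mem' := by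
        intro a ha
        show (c (t a⁻¹)).1 = (c a⁻¹).1
        rw [map_inv, fst_inv c hinj hmul, fst_inv c hinj hmul]
        exact ha }
  have hE : ∀ x, x ∈ E ↔ (c (t x)).1 = (c x).1 := fun x => Iff.rfl
  have FS : ∀ x, x ∈ E → t (x * x) = x * x := by
    intro x hx
    rw [map_mul]
    exact sq_eq_of_fst c hinj hmul ((hE x).1 hx)
  have C2 : ∀ x y : T, x ∈ E → y ∈ E →
      (c x).1 = 0 ∨ (c y).1 = 0 ∨ (c (x⁻¹ * y)).1 = 0 := by
    intro x y hx hy
    by_contra hcon
    push Not at hcon
    obtain ⟨hx0, hy0, hxy0⟩ := hcon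
    have hq : x⁻¹ * y ∈ E := E.mul_mem (E.inv_mem hx) hy
    have hne : ∀ p : T, (c p).1 ≠ 0 → p * p ≠ 1 := fun p hp h =>
      hp ((sq_eq_one_iff c hinj hmul p).1 h)
    have e1 : x * x = (x⁻¹ * y) * (x⁻¹ * y) :=
      TF _ _ (fst_sq c hinj hmul x) (fst_sq c hinj hmul _) (FS x hx) (FS _ hq)
        (hne x hx0) (hne _ hxy0)
    have e2 : (x * (x⁻¹ * y)) * (x * (x⁻¹ * y)) = x * x := by
      have : x * (x⁻¹ * y) = y := by group
      rw [this]
      exact TF _ _ (fst_sq c hinj hmul y) (fst_sq c hinj hmul x) (FS y hy) (FS x hx)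
        (hne y hy0) (hne x hx0)
    exact hx0 (kf c hinj hmul e1 e2)
  have C1 : ∀ v₁ v₂ : T, v₁ ∈ E ∨ v₂ ∈ E ∨ v₁⁻¹ * v₂ ∈ E := by
    intro v₁ v₂
    by_contra hcon
    push Not at hcon
    obtain ⟨h1, h2, h12⟩ := hcon
    have hw : ∀ v : T, v * t v ∈ E := by
      intro v
      show (c (t (v * t v))).1 = (c (v * t v)).1
      rw [map_mul, htt, fst_mul c hinj hmul, fst_mul c hinj hmul, add_comm]
    have hwne : ∀ v : T, v ∉ E → (c (v * t v)).1 ≠ 0 := by
      intro v hv h
      rw [fst_mul c hinj hmul] at h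
      exact hv ((hE v).2 (CharTwo.add_eq_zero.1 h).symm)
    rcases C2 (v₁ * t v₁) (v₂ * t v₂) (hw v₁) (hw v₂) with h | h | h
    · exact hwne v₁ h1 h
    · exact hwne v₂ h2 h
    · apply h12
      show (c (t (v₁⁻¹ * v₂))).1 = (c (v₁⁻¹ * v₂)).1
      simp only [map_mul, map_inv, fst_mul c hinj hmul, fst_inv c hinj hmul] at h ⊢
      have := h2F (c v₁).1
      have := h2F (c v₂).1
      linear_combination h - (h2F (c v₁).1) - (h2F (c v₂).1)
  have hZE : Zs c hinj hmul ≤ E := by
    intro z hz
    show (c (t z)).1 = (c z).1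
    rw [(aut_fst_zero c hinj hmul t z).2 hz]
    exact hz.symm
  have k1 := card_le_two_mul E C1
  have k2 := card_le_two_mul ((Zs c hinj hmul).subgroupOf E) (by
    intro x y
    simp only [Subgroup.mem_subgroupOf]
    rcases C2 x y x.2 y.2 with h | h | h
    · left; exact h
    · right; left; exact h
    · right; right
      show (c ((x⁻¹ * y : E) : T)).1 = 0
      exact h)
  have k3 : Nat.card ((Zs c hinj hmul).subgroupOf E) = Nat.card (Zs c hinj hmul) :=
    Nat.card_congr (Subgroup.subgroupOfEquivOfLe hZE).toEquiv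
  omega

/-- `Aut T` has no subgroup isomorphic to `S₃`. -/
theorem no_S3 [Finite T] (hcardT : Nat.card T = 64)
    (hcardZ : Nat.card (Subgroup.center T) = 4) (H : Subgroup (MulAut T))
    (e : ↥H ≃* Equiv.Perm (Fin 3)) : False := by
  set σ : Equiv.Perm (Fin 3) := Equiv.swap 0 1 with hσ
  set τ : Equiv.Perm (Fin 3) := Equiv.swap 1 2 with hτ
  have hσσ : σ * σ = 1 := by decide
  have hττ : τ * τ = 1 := by decide
  have h3 : (σ * τ) * (σ * τ) * (σ * τ) = 1 := by decide
  have hne : σ * τ ≠ 1 := by decide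
  set s : MulAut T := (e.symm σ : MulAut T) with hs
  set u : MulAut T := (e.symm τ : MulAut T) with hu
  have hss : s * s = 1 := by
    rw [hs, ← Subgroup.coe_mul, ← map_mul, hσσ, map_one, Subgroup.coe_one]
  have huu : u * u = 1 := by
    rw [hu, ← Subgroup.coe_mul, ← map_mul, hττ, map_one, Subgroup.coe_one]
  have hsu3 : (s * u) * (s * u) * (s * u) = 1 := by
    rw [hs, hu, ← Subgroup.coe_mul, ← Subgroup.coe_mul, ← Subgroup.coe_mul, ← map_mul, ← map_mul,
      ← map_mul, h3, map_one, Subgroup.coe_one]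
  have hsu : s * u ≠ 1 := by
    rw [hs, hu, ← Subgroup.coe_mul, ← map_mul]
    intro h
    have h' : e.symm (σ * τ) = 1 := Subtype.ext h
    exact hne (e.symm.injective (h'.trans (map_one e.symm).symm))
  have hex : ∃ z, (c z).1 = 0 ∧ (s * u) z ≠ z := by
    by_contra hcon
    push Not at hcon
    exact hsu (aut_three c hinj hmul (s * u) hsu3 hcon)
  obtain ⟨z, hz, hmv⟩ := hex
  by_cases huz : u z = z
  · refine no_invol c hinj hmul hcardT hcardZ s hss z hz ?_
    intro h
    apply hmv
    rw [MulAut.mul_apply, huz, h]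
  · exact no_invol c hinj hmul hcardT hcardZ u huu z hz huz

end group

end Cfsg.Agent.Lib.Helper6.SuzAut
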