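import Mathlib
import Cfsg.Agent.Lib.Helper45.SU3EvenSylow

/-!
# Coordinates on the Sylow 2-subgroups of `PSU₃(2ⁿ)`

Extracted from the proof of `Helper45.psu3_even_sylow_structure`: every Sylow 2-subgroup of
`PSU₃(2ⁿ)` carries coordinates `(a, b) ∈ F × F`, `b + b^q = a^(q+1)`, with product
`(a, b)(a₁, b₁) = (a + a₁, b + b₁ + a^q a₁)`.
-/

set_option autoImplicit false

namespace Cfsg.Agent.Lib.Helper6.SuzCoord

open Matrix Cfsg.Agent.Lib.Helper45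

variable {F : Type*} [Field F] [Fintype F]

theorem charP_two_of_card {n : ℕ} (hn : 2 ≤ n) (hF : Fintype.card F = (2 ^ n) ^ 2) :
    CharP F 2 := by
  obtain ⟨p, k, hpp, hchar, hq⟩ := q_prime_pow hF
  have hdvd : p ∣ 2 ^ n := by
    have hk : k ≠ 0 := by
      rintro rfl
      rw [pow_zero] at hq
      have : 4 ≤ 2 ^ n := by
        calc 4 = 2 ^ 2 := by norm_num
          _ ≤ 2 ^ n := Nat.pow_le_pow_right (by norm_num) hn
      omega
    rw [hq]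
    exact dvd_pow_self p hk
  have hp2 : p = 2 := (Nat.prime_dvd_prime_iff_eq hpp Nat.prime_two).mp
    (hpp.dvd_of_dvd_pow hdvd)
  rw [hp2] at hchar
  exact hchar

/-- Coordinates on a Sylow 2-subgroup of `PSU₃(2ⁿ)`, `n ≥ 2`. -/
theorem psu3_even_sylow_coords {n : ℕ} (hn : 2 ≤ n) (hF : Fintype.card F = (2 ^ n) ^ 2)
    (S : Sylow 2 (Cfsg.PSU 3 F (2 ^ n))) :
    ∃ c : ↥(S : Subgroup (Cfsg.PSU 3 F (2 ^ n))) → F × F, Function.Injective c ∧
      (∀ x y, c (x * y) = ((c x).1 + (c y).1,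
        (c x).2 + (c y).2 + (c x).1 ^ (2 ^ n) * (c y).1)) ∧
      ∀ a b : F, (∃ x, c x = (a, b)) ↔ b + b ^ (2 ^ n) = a ^ (2 ^ n + 1) := by
  classical
  have hp : Fact (Nat.Prime 2) := ⟨Nat.prime_two⟩
  have hq4 : 4 ≤ 2 ^ n := by
    calc 4 = 2 ^ 2 := by norm_num
      _ ≤ 2 ^ n := Nat.pow_le_pow_right (by norm_num) hn
  have hch : CharP F 2 := charP_two_of_card hn hF
  -- orders
  have hSUcard := card_SU hF 3 (by norm_num)
  have hfinSU : Finite ↥(Cfsg.SU 3 F (2 ^ n)) := inferInstance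
  have hfinP : Finite (Cfsg.PSU 3 F (2 ^ n)) := inferInstance
  have hPdvd : Nat.card (Cfsg.PSU 3 F (2 ^ n)) ∣ Nat.card ↥(Cfsg.SU 3 F (2 ^ n)) :=
    Dvd.intro _ (Subgroup.card_eq_card_quotient_mul_card_subgroup
      (Subgroup.center ↥(Cfsg.SU 3 F (2 ^ n)))).symm
  have hSUdvd : Nat.card ↥(Cfsg.SU 3 F (2 ^ n)) ∣
      (2 ^ n) ^ 3 * ((2 ^ n + 1) * ((2 ^ n) ^ 2 - 1) * ((2 ^ n) ^ 3 + 1)) := by
    refine Dvd.intro_left (2 ^ n + 1) ?_
    rw [hSUcard]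
    simp [Finset.prod_range_succ]
  have hodd : Nat.Coprime 2 ((2 ^ n + 1) * ((2 ^ n) ^ 2 - 1) * ((2 ^ n) ^ 3 + 1)) := by
    rw [Nat.coprime_two_left]
    have he : Even (2 ^ n) := (Nat.even_pow.mpr ⟨even_two, by omega⟩)
    have h1 : Odd (2 ^ n + 1) := he.add_one
    have h2 : Odd ((2 ^ n) ^ 2 - 1) := by
      have he2 : Even ((2 ^ n) ^ 2) := Nat.even_pow.mpr ⟨he, by norm_num⟩
      have hpos : 1 ≤ (2 ^ n) ^ 2 := Nat.one_le_pow _ _ (by omega)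
      obtain ⟨r, hr⟩ := he2
      exact ⟨r - 1, by omega⟩
    have h3 : Odd ((2 ^ n) ^ 3 + 1) := (Nat.even_pow.mpr ⟨he, by norm_num⟩).add_one
    exact (h1.mul h2).mul h3
  -- the unipotent subgroup
  have hU := suzuki_coords_structure hF hch hq4 ⟨n, rfl⟩ (unipCoord3 hF hch)
    (unipCoord3_injective hF hch) (unipCoord3_mul hF hch) (unipCoord3_range hF hch)
  have hUcard : Nat.card ↥(unipU3 hF hch) = (2 ^ n) ^ 3 := hU.1
  let π : ↥(Cfsg.SU 3 F (2 ^ n)) →* Cfsg.PSU 3 F (2 ^ n) :=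
    QuotientGroup.mk' (Subgroup.center (↥(Cfsg.SU 3 F (2 ^ n))))
  let f : ↥(unipU3 hF hch) →* Cfsg.PSU 3 F (2 ^ n) := π.comp (unipU3 hF hch).subtype
  have hcen : Nat.card (Subgroup.center (Cfsg.SU 3 F (2 ^ n))) ∣ 3 := by
    rw [card_center_SU hF 3 (by norm_num)]
    exact Nat.gcd_dvd_left _ _
  have hdisj : unipU3 hF hch ⊓ Subgroup.center (↥(Cfsg.SU 3 F (2 ^ n))) = ⊥ := by
    apply Subgroup.inf_eq_bot_of_coprime
    rw [hUcard]
    have h3 : Nat.Coprime ((2 ^ n) ^ 3) 3 := by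
      apply Nat.Coprime.pow_left
      apply Nat.Coprime.pow_left
      norm_num
    exact Nat.Coprime.coprime_dvd_right hcen h3
  have hfinj : Function.Injective f := by
    rw [injective_iff_map_eq_one]
    intro g hg
    have h1 : (g : ↥(Cfsg.SU 3 F (2 ^ n))) ∈ Subgroup.center (↥(Cfsg.SU 3 F (2 ^ n))) :=
      (QuotientGroup.eq_one_iff _).mp hg
    have h2 : (g : ↥(Cfsg.SU 3 F (2 ^ n))) ∈
        unipU3 hF hch ⊓ Subgroup.center (↥(Cfsg.SU 3 F (2 ^ n))) := ⟨g.2, h1⟩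
    rw [hdisj, Subgroup.mem_bot] at h2
    exact Subtype.ext h2
  have hS0 : Nat.card ↥f.range = (2 ^ n) ^ 3 := by
    rw [← hUcard]
    exact (Nat.card_congr (MonoidHom.ofInjective hfinj).toEquiv).symm
  have hS0p : IsPGroup 2 ↥f.range :=
    IsPGroup.of_card (n := n * 3) (by rw [hS0, ← pow_mul])
  obtain ⟨Q, hQ⟩ := hS0p.exists_le_sylow
  obtain ⟨m, hm⟩ := IsPGroup.exists_card_eq Q.isPGroup'
  have hQle : Nat.card ↥(Q : Subgroup (Cfsg.PSU 3 F (2 ^ n))) ≤ (2 ^ n) ^ 3 := by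
    have hQdvd : Nat.card ↥(Q : Subgroup (Cfsg.PSU 3 F (2 ^ n))) ∣
        (2 ^ n) ^ 3 * ((2 ^ n + 1) * ((2 ^ n) ^ 2 - 1) * ((2 ^ n) ^ 3 + 1)) :=
      ((Subgroup.card_subgroup_dvd_card _).trans hPdvd).trans hSUdvd
    rw [hm] at hQdvd ⊢
    have hcop : Nat.Coprime (2 ^ m) ((2 ^ n + 1) * ((2 ^ n) ^ 2 - 1) * ((2 ^ n) ^ 3 + 1)) :=
      Nat.Coprime.pow_left m hodd
    exact Nat.le_of_dvd (by positivity) (hcop.dvd_of_dvd_mul_right hQdvd)
  have hQeq : f.range = (Q : Subgroup (Cfsg.PSU 3 F (2 ^ n))) :=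
    Subgroup.eq_of_le_of_card_ge hQ (by rw [hS0]; exact hQle)
  let ψ : ↥(S : Subgroup (Cfsg.PSU 3 F (2 ^ n))) ≃* ↥(unipU3 hF hch) :=
    ((Sylow.equiv S Q).trans (MulEquiv.subgroupCongr hQeq.symm)).trans
      (MonoidHom.ofInjective hfinj).symm
  refine ⟨fun x => unipCoord3 hF hch (ψ x),
    (unipCoord3_injective hF hch).comp ψ.injective, ?_, ?_⟩
  · intro x y
    show unipCoord3 hF hch (ψ (x * y)) = _
    rw [map_mul, unipCoord3_mul]
  · intro a b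
    rw [← unipCoord3_range hF hch a b]
    constructor
    · rintro ⟨x, hx⟩
      exact ⟨ψ x, hx⟩
    · rintro ⟨g, hg⟩
      exact ⟨ψ.symm g, by
        show unipCoord3 hF hch (ψ (ψ.symm g)) = _
        rw [ψ.apply_symm_apply, hg]⟩

end Cfsg.Agent.Lib.Helper6.SuzCoord
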